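import Cfsg.Agent.Tri.Base


/-! S3645, order of U3(7): values of the rational characters of degrees 42 and 343. -/

set_option autoImplicit false

namespace Cfsg.Agent.Tri

open Subgroup

variable {G : Type*} [Group G] [Finite G]

/-- Involutions.  Proof: `¬ 43 ∣ 2`; `D.θz 2` gives `χ t + ψ t = 1` (`2 * 384 ∤ |G|`); `D.pair t t`
has `n = 0`, so with `u = χ t`: `49 u² + 6 (1-u)² = 2058`, i.e. `(u + 6)(55 u - 342) = 0`, `u = -6`. -/
theorem D7.inv (D : D7 G) {t : G} (ht : orderOf t = 2) : D.χ t = -6 ∧ D.ψ t = 7 := by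
  have h43 : ¬ 43 ∣ orderOf t := by rw [ht]; decide
  have h1 := D.θz 2 t Nat.prime_two (by decide) (ht ▸ dvd_rfl) h43
  obtain ⟨n, h2, h3⟩ := D.pair t t h43 h43
  rw [h3 ht ht, h1, show D.ψ t = 1 - D.χ t by omega] at h2
  have : (D.χ t + 6) * (55 * D.χ t - 342) = 0 := by
    push_cast at h2
    nlinarith
  rcases mul_eq_zero.1 this with h | h <;> omega

/-- the centraliser of an involution: `D.ψω` gives `343 cc ∣ 7 |G|`, and `cc ∣ 131712`
(`Dat.cc_dvd_m`), so `cc ∣ gcd (115584, 131712) = 2688`. -/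
theorem D7.inv_cc (D : D7 G) {t : G} (ht : orderOf t = 2) : cc t ∣ 2688 := by
  have h1 := D.ψω t
  rw [(D.inv ht).2] at h1
  have h2 := D.cc_dvd_m (by norm_num) (g := t) (by rintro rfl; simp at ht) (by omega)
  have h3 : 343 * cc t ∣ 343 * 115584 := by exact_mod_cast h1
  exact Nat.dvd_gcd (Nat.dvd_of_mul_dvd_mul_left (by norm_num) h3) h2

/-- `7`-elements.  Proof: `orderOf y = 7 ^ j`, `j ≥ 1`; `D.ψz 7` gives `ψ y = 0`; `D.χq` gives
`7 ∣ w = χ y`; `D.pair y y` (`n ≥ 0`) gives `57 w² + 14 w - 2695 ≤ 0`, so `-7 ≤ w ≤ 6`, `w ∈ {0,-7}`.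
`w = 0`: `D.θω`: `384 cc ∣ |G|`, `cc ∣ 43 * 343`, with `cc ∣ 131712`: `cc ∣ 343`.
`w = -7`: `384 cc ∣ 8 |G|` so `cc ∣ gcd (117992, 131712) = 2744`, and `D.col`: `946 ≤ cc`. -/
theorem D7.sev (D : D7 G) {y : G} {k : ℕ} (h1 : y ≠ 1) (hy : y ^ 7 ^ k = 1) :
    (D.χ y = 0 ∧ cc y ∣ 343) ∨ (D.χ y = -7 ∧ (cc y = 1372 ∨ cc y = 2744)) := by
  obtain ⟨j, -, hj⟩ := (Nat.dvd_prime_pow (by norm_num)).1 (orderOf_dvd_of_pow_eq_one hy)
  have h7 : 7 ∣ orderOf y := hj ▸ dvd_pow_self 7 (by rintro rfl; exact h1 (orderOf_eq_one_iff.1 hj))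
  have h43 : ¬ 43 ∣ orderOf y := fun c => by
    have := (by norm_num : Nat.Prime 43).dvd_of_dvd_pow (hj ▸ c); omega
  have h2 := D.ψz 7 y (by norm_num) (by decide) h7
  have h3 := D.χq 7 k y (by norm_num) hy
  obtain ⟨n, h4, -⟩ := D.pair y y h43 h43
  have h5 := D.θω y h43
  have h6 := D.col y h43
  have h8 := D.cc_dvd_m (by norm_num) h1 (fun c => h43 (c ▸ dvd_rfl))
  have h9 := Int.natCast_nonneg (n * (cc y * cc y) * (42 * 343 * 384))
  rw [h4, h2] at h9
  rw [h2] at h5 h6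
  push_cast at h9 h3
  have : D.χ y = 0 ∨ D.χ y = -7 := by
    have : -8 < D.χ y := by nlinarith
    have : D.χ y < 7 := by nlinarith
    omega
  rcases this with h | h <;> rw [h] at h5 h6
  · have : 384 * cc y ∣ 384 * 14749 := Int.natCast_dvd_natCast.1 (dvd_neg.1 h5)
    exact .inl ⟨h, Nat.dvd_gcd (Nat.dvd_of_mul_dvd_mul_left (by norm_num) this) h8⟩
  · have : 384 * cc y ∣ 384 * 117992 := Int.natCast_dvd_natCast.1 (dvd_neg.1 h5)
    have h10 : cc y ∣ 2744 := Nat.dvd_gcd (Nat.dvd_of_mul_dvd_mul_left (by norm_num) this) h8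
    obtain ⟨d, hd⟩ := h10
    have : d < 3 := by
      by_contra c
      push_cast at h6
      nlinarith
    refine .inr ⟨h, ?_⟩
    interval_cases d <;> omega

/-- In a Sylow `7`-subgroup `R` (order 343) the elements with `χ = -7` are the non-identity elements
of a subgroup of order 7.  Proof: `D.χs R (fs R)`: `42 - 7 n = 343 k` with `n` the number of special
elements, so `n = 6`.  Take a special `z`; `z ^ i` (`7 ∤ i`) is special by `D.χp`; if
`orderOf z ≠ 7` then `orderOf z ≥ 49` and `z, z², …, z⁶, z⁸` are 7 distinct special elements.  So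
`orderOf z = 7` and the six elements of `(zpowers z)#` are all the special ones. -/
theorem D7.exZ (D : D7 G) [Fact (Nat.Prime 7)] (R : Sylow 7 G) :
    ∃ z ∈ (R : Subgroup G), orderOf z = 7 ∧
      ∀ y ∈ (R : Subgroup G), (D.χ y = -7 ↔ y ∈ zpowers z ∧ y ≠ 1) := by
  classical
  have cR : Nat.card R = 7 ^ 3 := by
    rw [R.card_eq_multiplicity, D.card, Nat.factorization_def _ (by norm_num)]; congr 1; decide +kernel
  have hp : ∀ y ∈ (R : Subgroup G), y ^ 7 ^ 3 = 1 := fun y hy => by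
    rw [← cR]; exact congrArg Subtype.val (pow_card_eq_one' (x := (⟨y, hy⟩ : R)))
  let s := (fs (R : Subgroup G)).filter fun y => D.χ y = -7
  have hs : ∀ y, y ∈ s ↔ y ∈ (R : Subgroup G) ∧ D.χ y = -7 := fun y => by simp [s, mem_fs]
  have s6 : s.card = 6 := by
    obtain ⟨n, hn⟩ := D.χs R (fs R) fun _ => mem_fs
    rw [← Finset.sum_filter_add_sum_filter_not _ fun y => D.χ y = -7,
      Finset.sum_congr rfl (g := fun _ => -7) fun y hy => (Finset.mem_filter.1 hy).2,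
      Finset.sum_eq_single_of_mem (s := (fs (R : Subgroup G)).filter fun y => ¬ D.χ y = -7) 1
        (by simp [mem_fs, D.χ1]) fun y hy h1 =>
        ((D.sev h1 (hp y (mem_fs.1 (Finset.mem_filter.1 hy).1))).resolve_right
          fun c => (Finset.mem_filter.1 hy).2 c.1).1, D.χ1, Finset.sum_const, cR] at hn
    simp only [nsmul_eq_mul] at hn
    change (s.card : ℤ) * _ + _ = _ at hn
    omega
  obtain ⟨z, hz⟩ := Finset.card_pos.1 (by omega : 0 < s.card)
  obtain ⟨zR, z7⟩ := (hs z).1 hz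
  obtain ⟨j, j3, hj⟩ := (Nat.dvd_prime_pow (by norm_num)).1 (orderOf_dvd_of_pow_eq_one (hp z zR))
  have pw : ∀ i, ¬ 7 ∣ i → z ^ i ∈ s := fun i hi => (hs _).2 ⟨pow_mem zR i, (D.χp z i (hj ▸
    (((Nat.Prime.coprime_iff_not_dvd (by norm_num)).2 hi).symm.pow_right j))).trans z7⟩
  have key : ∀ l : Finset ℕ, (∀ i ∈ l, ¬ 7 ∣ i ∧ i < orderOf z) → (l.image (z ^ ·)).card = l.card ∧
      l.image (z ^ ·) ⊆ s := fun l hl =>
    ⟨Finset.card_image_of_injOn (pow_injOn_Iio_orderOf.mono fun i hi => (hl i hi).2),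
      Finset.image_subset_iff.2 fun i hi => pw i (hl i hi).1⟩
  have o7 : orderOf z = 7 := by
    rcases j with _ | _ | j
    · rw [orderOf_eq_one_iff.1 hj, D.χ1] at z7; omega
    · exact hj
    · have : 0 < 7 ^ j := by positivity
      obtain ⟨a, b⟩ := key {1, 2, 3, 4, 5, 6, 8} (by rw [hj, pow_succ, pow_succ]; simp; omega)
      have := Finset.card_le_card b
      rw [a, s6] at this
      exact absurd this (by decide)
  obtain ⟨a, b⟩ := key {1, 2, 3, 4, 5, 6} (by rw [o7]; decide)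
  have e := Finset.eq_of_subset_of_card_le b (by rw [a, s6]; decide)
  refine ⟨z, zR, o7, fun y hy => ⟨fun h => ⟨?_, ?_⟩, fun ⟨h, h1⟩ => ?_⟩⟩
  · obtain ⟨i, -, rfl⟩ := Finset.mem_image.1 (e ▸ (hs y).2 ⟨hy, h⟩)
    exact pow_mem (mem_zpowers z) i
  · rintro rfl
    rw [D.χ1] at h; omega
  · obtain ⟨i, rfl⟩ := (mem_powers_iff_mem_zpowers.2 h)
    exact ((hs _).1 (pw i fun c => h1 (orderOf_dvd_iff_pow_eq_one.1 (o7 ▸ c)))).2

end Cfsg.Agent.Tri
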