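import Cfsg.Agent.Tri.Base
import Cfsg.Agent.Tri.V7
import Cfsg.Agent.PLocal.Amb

/-! S3645, order of U3(7): the Sylow 7-subgroups. -/

set_option autoImplicit false

namespace Cfsg.Agent.Tri

open Subgroup

variable {G : Type*} [Group G] [Finite G]

theorem b7_free {C : Type*} [Group C] {H : Subgroup C} {S : Set C}
    (h1 : ∀ h ∈ H, ∀ s ∈ S, h * s * h⁻¹ ∈ S) (h2 : ∀ h ∈ H, ∀ s ∈ S, h * s * h⁻¹ = s → h = 1) :
    Nat.card H ∣ Nat.card S := by
  let : MulAction H S :=
    { smul := fun h s => ⟨h * s * (h : C)⁻¹, h1 h h.2 s s.2⟩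
      one_smul := fun s => Subtype.ext (show (1 : C) * s * (1 : C)⁻¹ = s by simp)
      mul_smul := fun a b s => Subtype.ext
        (show (a * b : C) * s * (a * b : C)⁻¹ = a * (b * s * (b : C)⁻¹) * (a : C)⁻¹ by group) }
  rw [Nat.card_congr (MulAction.selfEquivOrbitsQuotientProd (G := H) (X := S) fun s =>
    (eq_bot_iff_forall _).2 fun h hh => Subtype.ext (h2 h h.2 s s.2 (congrArg Subtype.val hh))),
    Nat.card_prod]
  exact dvd_mul_left _ _

theorem b7_card {p k m : ℕ} [hp : Fact p.Prime] (h : Nat.card G = p ^ k * m) (hm : ¬ p ∣ m) (R : Sylow p G) :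
    Nat.card (R : Subgroup G) = p ^ k := by
  have e := R.card_eq_multiplicity
  rw [h, Nat.factorization_mul (pow_ne_zero _ hp.out.ne_zero) (by rintro rfl; exact hm (dvd_zero _)),
    hp.out.factorization_pow, Finsupp.add_apply, Finsupp.single_eq_same,
    Nat.factorization_eq_zero_of_not_dvd hm, add_zero] at e
  exact e

theorem b7_normal {C : Type*} [Group C] [Finite C] (hC : Nat.card C = 2744) {R Z : Subgroup C}
    (hR : Nat.card R = 343) (hZ : Nat.card Z = 7) (hz : Z ≤ R) (hc : Z ≤ center C)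
    (hf : ∀ r ∈ R, r ∉ Z → ∀ x, x * r = r * x → x ^ 343 = 1) : R.Normal := by
  have : Fact (Nat.Prime 2) := ⟨Nat.prime_two⟩
  have i8 : R.index = 8 := by
    have := R.card_mul_index
    rw [hR, hC] at this
    omega
  have d : R.normalCore.index ∣ 40320 := by
    rw [normalCore_eq_ker, index_ker]
    refine (card_subgroup_dvd_card _).trans ?_
    rw [Nat.card_perm, ← index_eq_card, i8]; decide
  have e := R.normalCore.card_mul_index
  obtain ⟨i, hi, e'⟩ := (Nat.dvd_prime_pow (by decide : Nat.Prime 7) (m := 3)).1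
    (show Nat.card R.normalCore ∣ 7 ^ 3 from (card_dvd_of_le R.normalCore_le).trans hR.dvd)
  rw [hC, e'] at e
  have hK : Z ≤ R.normalCore := fun z h b => by
    rw [mem_center_iff.1 (hc h) b, mul_inv_cancel_right]; exact hz h
  interval_cases i
  · rw [show R.normalCore.index = 2744 by omega] at d; omega
  · rw [show R.normalCore.index = 392 by omega] at d; omega
  · obtain ⟨X⟩ : Nonempty (Sylow 2 C) := inferInstance
    have c8 := b7_card (k := 3) (m := 343) hC (by decide) X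
    have := b7_free (H := (X : Subgroup C)) (S := (R.normalCore : Set C) \ Z)
      (fun h _ s hs => ⟨R.normalCore_normal.conj_mem s hs.1 h, fun a => hs.2 (by
        have := mem_center_iff.1 (hc a) h⁻¹
        rw [show s = h * s * h⁻¹ from by
          calc s = h⁻¹ * (h * s * h⁻¹) * h := by group
            _ = _ := by rw [this]; group]
        exact a)⟩)
      fun h hh s hs a => (pow_eq_one_iff_of_coprime (by decide : Nat.Coprime 343 (2 ^ 3))).1
        ⟨hf s (R.normalCore_le hs.1) hs.2 h (mul_inv_eq_iff_eq_mul.1 a), by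
          rw [← c8]; exact congrArg Subtype.val (pow_card_eq_one' (x := (⟨h, hh⟩ : (X : Subgroup C))))⟩
    rw [c8, Nat.card_coe_set_eq, Set.ncard_diff (SetLike.coe_subset_coe.2 hK), ← Nat.card_coe_set_eq,
      ← Nat.card_coe_set_eq, SetLike.coe_sort_coe, SetLike.coe_sort_coe, e', hZ] at this
    omega
  · rw [← eq_of_le_of_card_ge R.normalCore_le (by rw [e', hR]; decide)]
    exact R.normalCore_normal

theorem b7_zp {z y : G} (ho : orderOf z = 7) (hy : y ∈ zpowers z) (y1 : y ≠ 1) : zpowers y = zpowers z :=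
  eq_of_le_of_card_ge (zpowers_le.2 hy) (by
    rw [Nat.card_zpowers, Nat.card_zpowers, ho]
    exact (((Nat.dvd_prime (by decide)).1 (ho ▸ orderOf_dvd_of_mem_zpowers hy)).resolve_left
      fun e => y1 (orderOf_eq_one_iff.1 e)).ge)

omit [Finite G] in
theorem b7_mem {p : ℕ} [Fact p.Prime] {R : Sylow p G} {x : G} {k : ℕ}
    (hx : x ∈ normalizer ((R : Subgroup G) : Set G)) (hp : x ^ p ^ k = 1) : x ∈ (R : Subgroup G) :=
  ((IsPGroup.inf_normalizer_sylow (P := zpowers x) (fun ⟨_, i, rfl⟩ => ⟨k, Subtype.ext (by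
    change (x ^ i) ^ p ^ k = 1
    rw [← zpow_natCast, zpow_comm, zpow_natCast, hp, one_zpow])⟩) R).le ⟨mem_zpowers x, hx⟩).2

omit [Finite G] in
theorem b7_pow {p : ℕ} {R : Sylow p G} {x : G} (hx : x ∈ (R : Subgroup G)) : ∃ k, x ^ p ^ k = 1 :=
  (R.2 ⟨x, hx⟩).imp fun _ h => congrArg Subtype.val h

theorem D7.cardR (D : D7 G) [Fact (Nat.Prime 7)] (R : Sylow 7 G) : Nat.card (R : Subgroup G) = 343 :=
  b7_card (k := 3) (m := 16512) (D.card.trans (by norm_num)) (by norm_num) R

theorem D7.syl0 (D : D7 G) [Fact (Nat.Prime 7)] (R : Sylow 7 G) {z : G} (hz : z ∈ (R : Subgroup G))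
    (ho : orderOf z = 7) (hZ : ∀ y ∈ (R : Subgroup G), (D.χ y = -7 ↔ y ∈ zpowers z ∧ y ≠ 1)) :
    Nat.card (Sylow 7 G) = 344 ∧ cc z = 2744 ∧ (R : Subgroup G) ≤ centralizer {z} ∧
      normalizer ((zpowers z : Subgroup G) : Set G) = normalizer ((R : Subgroup G) : Set G) := by
  have z1 : z ≠ 1 := fun e => by rw [e, orderOf_one] at ho; omega
  have χz := (hZ z hz).2 ⟨mem_zpowers z, z1⟩
  have cZ : Nat.card (zpowers z) = 7 := by rw [Nat.card_zpowers, ho]
  have cz : centralizer (zpowers z : Set G) = centralizer {z} := by rw [zpowers_eq_closure, centralizer_closure]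
  have NB : normalizer ((R : Subgroup G) : Set G) ≤ normalizer ((zpowers z : Subgroup G) : Set G) := fun g hg =>
    mem_normalizer_fintype (by
      rintro _ ⟨i, rfl⟩
      rw [← conj_zpow]
      exact zpow_mem ((hZ _ ((mem_normalizer_iff.1 hg z).1 hz)).1 ((D.χc g z).trans χz)).1 i)
  have RB := le_normalizer.trans NB
  have RC : (R : Subgroup G) ≤ centralizer {z} := by
    obtain ⟨⟨y, hy⟩, y1⟩ := (ne_bot_iff_exists_ne_one).1 (PLocal.Amb.inf_centralizer_ne_bot R.2
      (IsPGroup.of_card (n := 1) cZ) RB (by rwa [Ne, zpowers_eq_bot]))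
    rw [← cz, ← b7_zp ho hy.1 fun e => y1 (Subtype.ext e), zpowers_eq_closure, centralizer_closure]
    exact fun r hr => mem_centralizer_singleton_iff.2 (hy.2 r hr)
  have CB : centralizer {z} ≤ normalizer ((zpowers z : Subgroup G) : Set G) := cz ▸ centralizer_le_normalizer _
  have j6 : (centralizer {z}).relIndex (normalizer ((zpowers z : Subgroup G) : Set G)) ∣ 6 := by
    rw [← cz, relIndex, ← normalizerMonoidHom_ker, index_ker]
    refine (card_subgroup_dvd_card _).trans ?_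
    rw [IsCyclic.card_mulAut, cZ]; decide
  have e1 := relIndex_mul_index CB
  have e2 := (centralizer {z}).card_mul_index
  have e3 := relIndex_mul_index NB
  have m1 : (normalizer ((R : Subgroup G) : Set G)).index % 7 = 1 := by
    have := card_sylow_modEq_one 7 G
    rwa [R.card_eq_index_normalizer] at this
  have m2 : (normalizer ((R : Subgroup G) : Set G)).relIndex (normalizer ((zpowers z : Subgroup G) : Set G)) % 7 = 1 := by
    have := card_sylow_modEq_one 7 (normalizer ((zpowers z : Subgroup G) : Set G))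
    rwa [(R.subtype RB).card_eq_index_normalizer, ← Sylow.coe_coe, Sylow.coe_subtype, ← subgroupOf_normalizer_eq RB] at this
  have m3 : (normalizer ((zpowers z : Subgroup G) : Set G)).index % 7 = 1 := by
    rwa [← e3, Nat.mul_mod, m2, one_mul, Nat.mod_mod] at m1
  obtain ⟨k, hk⟩ := b7_pow hz
  have c := ((D.sev z1 hk).resolve_left fun a => by omega).2
  rw [D.card] at e2
  have key : cc z = 2744 ∧ (normalizer ((zpowers z : Subgroup G) : Set G)).index = 344 := by
    have l := Nat.le_of_dvd (by decide) j6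
    unfold cc at c ⊢
    generalize (centralizer {z}).relIndex (normalizer ((zpowers z : Subgroup G) : Set G)) = j at *
    have l' := Nat.pos_of_dvd_of_pos j6 (by decide)
    rcases c with c | c <;> rw [c] at e2 ⊢ <;> interval_cases j <;> omega
  have nC : centralizer {z} ≤ normalizer ((R : Subgroup G) : Set G) :=
    (normal_subgroupOf_iff_le_normalizer RC).1 (b7_normal key.1 (Z := (zpowers z).subgroupOf _)
      (by rw [Nat.card_congr (subgroupOfEquivOfLe RC).toEquiv, D.cardR])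
      (by rw [Nat.card_congr (subgroupOfEquivOfLe ((zpowers_le.2 hz).trans RC)).toEquiv, cZ])
      (fun x hx => zpowers_le.2 hz hx)
      (fun x hx => mem_center_iff.2 fun y => Subtype.ext ((cz.ge y.2) _ hx).symm)
      fun r hr rZ x e => by
        obtain ⟨k, hk⟩ := b7_pow (R := R) (x := r.1) hr
        have r1 : r.1 ≠ 1 := fun e => rZ (by rw [mem_subgroupOf, e]; exact one_mem _)
        have d := ((D.sev r1 hk).resolve_right fun a => rZ ((hZ _ hr).1 a.1).1).2
        refine Subtype.ext (orderOf_dvd_iff_pow_eq_one.1 ((orderOf_dvd_natCard _ ?_).trans d))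
        exact mem_centralizer_singleton_iff.2 (congrArg Subtype.val e))
  have BN : normalizer ((zpowers z : Subgroup G) : Set G) ≤ normalizer ((R : Subgroup G) : Set G) := fun g hg =>
    mem_normalizer_fintype fun r hr => by
      obtain ⟨k, hk⟩ := b7_pow hr
      refine b7_mem (k := k) (nC (cz.le fun s hs => ?_)) (by rw [conj_pow, hk]; group)
      have e := cz.ge (RC hr) _ ((mem_normalizer_iff.1 (inv_mem hg) s).1 hs)
      calc s * (g * r * g⁻¹) = g * (g⁻¹ * s * g⁻¹⁻¹ * r) * g⁻¹ := by group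
        _ = _ := by rw [e]; group
  have E := le_antisymm BN NB
  exact ⟨by rw [R.card_eq_index_normalizer, ← key.2, E]; rfl, key.1, RC, E⟩

/-- Let `Z = zpowers z`, `C = C(z)`, `B = N(Z)`.
1. `N(R) ≤ B` (conjugation by `g ∈ N(R)` preserves `R` and `χ`, so maps `z` into `Z#`), `R ≤ C`
(`R ≤ B`, `B/C` embeds in `Aut Z` of order 6; or: `R` permutes the 6 elements of `Z#`, orbits have
size `7^i`).
2. `|B| = cc z * j`, `j ∣ 6`, `cc z ∈ {1372, 2744}` (`D7.sev`).  `n₇(G) = |G:N(R)| = |G:B| |B:N(R)|`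
and `|B:N(R)| = n₇(B) ≡ 1`, so `|G:B| ≡ 1 mod 7`; `|G:B| ∈ {4128/j, 2064/j}`, only `344` is `≡ 1`:
`cc z = 2744`, `|B| = 343 * 48`.
3. `R ⊴ C`: else `n₇(C) = 8`; let `K` be the kernel of `C` on its 8 Sylow 7-subgroups; `|C/K| ∣ 8!`
so `49 ∣ |K|`, `K ≤ N_C(R) = R` (order `2744/8`), `|K| ≠ 343`, so `|K| = 49`, `Z ≤ K` (`z` central in
`C`).  A Sylow 2-subgroup `X` of `C` (order 8) acts freely by conjugation on the 42 elements of
`K \ Z` (such `r ∈ R \ Z` has `χ r = 0`, `cc r ∣ 343`), `8 ∤ 42`.  As `C ⊴ B`, `R ⊴ B`: `B = N(R)`,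
`n₇ = 344`.
4. TI: let `1 ≠ r ∈ R ⊓ R'`, `z'` the element of `D7.exZ` for `R'`.  If `χ r = -7`, `r` generates both
`Z` and `Z'`, so `N(R) = N(Z) = N(R')` and `R = R'`.  If `χ r = 0`, `C(r)` is a 7-group containing
`z` and `z'` (central in `R`, `R'`), inside some Sylow `R''`, whose special elements form one
subgroup of order 7: `Z = Z'` again. -/
theorem D7.syl (D : D7 G) [Fact (Nat.Prime 7)] (R : Sylow 7 G) {z : G} (hz : z ∈ (R : Subgroup G))
    (ho : orderOf z = 7) (hZ : ∀ y ∈ (R : Subgroup G), (D.χ y = -7 ↔ y ∈ zpowers z ∧ y ≠ 1)) :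
    Nat.card (Sylow 7 G) = 344 ∧ cc z = 2744 ∧ (R : Subgroup G) ≤ centralizer {z} ∧
      normalizer ((zpowers z : Subgroup G) : Set G) = normalizer ((R : Subgroup G) : Set G) ∧
      ∀ R' : Sylow 7 G, R' ≠ R → (R : Subgroup G) ⊓ R' = ⊥ := by
  obtain ⟨a1, a2, a3, a4⟩ := D.syl0 R hz ho hZ
  refine ⟨a1, a2, a3, a4, fun R' hR => (eq_bot_iff_forall _).2 fun r hr => by_contra fun r1 => hR ?_⟩
  obtain ⟨z', hz', ho', hZ'⟩ := D.exZ R'
  obtain ⟨-, -, b3, b4⟩ := D.syl0 R' hz' ho' hZ'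
  have ne : ∀ {y : G}, orderOf y = 7 → y ≠ 1 := fun h e => by rw [e, orderOf_one] at h; omega
  have E : zpowers z = zpowers z' := by
    obtain ⟨k, hk⟩ := b7_pow hr.1
    rcases D.sev r1 hk with ⟨-, d⟩ | ⟨e, -⟩
    · obtain ⟨i, -, e⟩ := (Nat.dvd_prime_pow (by decide : Nat.Prime 7) (m := 3)).1 d
      obtain ⟨S, hS⟩ := (IsPGroup.of_card e).exists_le_sylow
      obtain ⟨y, -, hy, hY⟩ := D.exZ S
      rw [b7_zp hy ((hY z (hS (mem_centralizer_singleton_iff.2 (mem_centralizer_singleton_iff.1 (a3 hr.1)).symm))).1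
          ((hZ z hz).2 ⟨mem_zpowers z, ne ho⟩)).1 (ne ho),
        b7_zp hy ((hY z' (hS (mem_centralizer_singleton_iff.2 (mem_centralizer_singleton_iff.1 (b3 hr.2)).symm))).1
          ((hZ' z' hz').2 ⟨mem_zpowers z', ne ho'⟩)).1 (ne ho')]
    · rw [← b7_zp ho ((hZ r hr.1).1 e).1 r1, b7_zp ho' ((hZ' r hr.2).1 e).1 r1]
  refine Sylow.ext (R'.3 R.2 fun x hx => ?_).symm
  obtain ⟨k, hk⟩ := b7_pow hx
  exact b7_mem (by rw [← a4, E, b4]; exact le_normalizer hx) hk

/-- `R` is transitive on the other 343 Sylow subgroups: it acts on them freely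
(`N_R(R') ≤ R ⊓ R' = 1`, `IsPGroup.inf_normalizer_sylow`). -/
theorem D7.trans (D : D7 G) [Fact (Nat.Prime 7)] (R R₁ R₂ : Sylow 7 G) (h1 : R₁ ≠ R) (h2 : R₂ ≠ R) :
    ∃ r ∈ (R : Subgroup G), r • R₁ = R₂ := by
  obtain ⟨z, hz, ho, hZ⟩ := D.exZ R
  obtain ⟨a1, -, -, -, a5⟩ := D.syl R hz ho hZ
  have c : Nat.card {S // S ≠ R} = 343 := by
    classical
    have := Nat.card_congr (Equiv.optionSubtypeNe R)
    rw [Finite.card_option] at this
    omega
  obtain ⟨r, e⟩ := (Function.Injective.bijective_of_nat_card_le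
    (f := fun r : (R : Subgroup G) => (⟨r.1 • R₁, fun e => h1 (by
      rw [← inv_smul_smul r.1 R₁, e]
      exact Sylow.smul_eq_iff_mem_normalizer.2 (le_normalizer (inv_mem r.2)))⟩ : {S // S ≠ R}))
    (fun r s e => by
      have e : r.1 • R₁ = s.1 • R₁ := congrArg Subtype.val e
      have m := mul_mem (inv_mem s.2) r.2
      obtain ⟨k, hk⟩ := b7_pow m
      have := mem_bot.1 ((a5 R₁ h1).le ⟨m, b7_mem (Sylow.smul_eq_iff_mem_normalizer.1 (by
        rw [mul_smul, e, inv_smul_smul])) hk⟩)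
      exact Subtype.ext (inv_mul_eq_one.1 this).symm) (by rw [c, D.cardR])).2 ⟨R₂, h2⟩
  exact ⟨r, r.2, congrArg Subtype.val e⟩

/-- the two-point stabiliser has order `|N(R)| / 343 = 48` (orbit-stabiliser with `D7.trans`) and
meets `R` trivially -/
theorem D7.card_H (D : D7 G) [Fact (Nat.Prime 7)] (R R' : Sylow 7 G) (h : R' ≠ R) :
    Nat.card ↥(normalizer ((R : Subgroup G) : Set G) ⊓ normalizer ((R' : Subgroup G) : Set G)) = 48 := by
  obtain ⟨z, hz, ho, hZ⟩ := D.exZ R
  obtain ⟨a1, -, -, -, a5⟩ := D.syl R hz ho hZ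
  have e := (normalizer ((R : Subgroup G) : Set G)).card_mul_index
  have i : (normalizer ((R : Subgroup G) : Set G)).index = 344 := R.card_eq_index_normalizer.symm.trans a1
  have := Nat.card_eq_of_bijective (fun x : ↥(R : Subgroup G) ×
      ↥(normalizer ((R : Subgroup G) : Set G) ⊓ normalizer ((R' : Subgroup G) : Set G)) =>
      (⟨x.1.1 * x.2.1, mul_mem (le_normalizer x.1.2) x.2.2.1⟩ : normalizer ((R : Subgroup G) : Set G)))
    ⟨fun ⟨r, a⟩ ⟨s, c⟩ e => by
      have e : r.1 * a.1 = s.1 * c.1 := congrArg Subtype.val e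
      have m := mul_mem (inv_mem s.2) r.2
      obtain ⟨k, hk⟩ := b7_pow m
      have := mem_bot.1 ((a5 R' h).le ⟨m, b7_mem (by
        rw [show s.1⁻¹ * r.1 = c.1 * a.1⁻¹ by rw [inv_mul_eq_iff_eq_mul, ← mul_assoc, ← e, mul_inv_cancel_right]]
        exact mul_mem c.2.2 (inv_mem a.2.2)) hk⟩)
      obtain rfl : s = r := Subtype.ext (inv_mul_eq_one.1 this)
      exact Prod.ext rfl (Subtype.ext (mul_left_cancel e)), fun ⟨n, hn⟩ => by
      obtain ⟨r, hr, e⟩ := D.trans R R' (n • R') h fun e => h (by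
        rw [← inv_smul_smul n R', e]; exact Sylow.smul_eq_iff_mem_normalizer.2 (inv_mem hn))
      exact ⟨(⟨r, hr⟩, ⟨r⁻¹ * n, mem_inf.2 ⟨mul_mem (inv_mem (le_normalizer hr)) hn,
        Sylow.smul_eq_iff_mem_normalizer.1 (by rw [mul_smul, ← e, inv_smul_smul])⟩⟩), Subtype.ext (mul_inv_cancel_left r n)⟩⟩
  rw [Nat.card_prod, D.cardR] at this
  rw [i, D.card] at e
  omega

end Cfsg.Agent.Tri
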