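import Mathlib
import Cfsg.Prelude.Def_DegreeGraph
import Cfsg.Prelude.Def_CaseTheorems

/-!
Numerical shadow of the principal `p`-block of a group of order `p * m` whose Sylow `p`-subgroup `P`
has order `p`, is self-centralising and has index `3` in its normaliser.  The block consists of
`1`, two rational characters `χ`, `ψ` (degrees `a`, `b`, value `-1` on `P#`) and `t = (p-1)/3`
exceptional characters of degree `c` which agree with `θ = χ + ψ - 1` on the `p`-regular elements.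
-/

set_option autoImplicit false

namespace Cfsg.Agent.Tri

open Subgroup

/-- the order of the centraliser of an element -/
noncomputable abbrev cc {G : Type*} [Group G] (g : G) : ℕ := Nat.card (centralizer ({g} : Set G))

/-- the numerical data of the principal `p`-block -/
structure Dat (G : Type*) [Group G] (p m a b c t : ℕ) where
  χ : G → ℤ
  ψ : G → ℤ
  card : Nat.card G = p * m
  /-- `C(P) = P` -/
  cp : ∀ g : G, g ≠ 1 → p ∣ cc g → orderOf g = p
  χ1 : χ 1 = a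
  ψ1 : ψ 1 = b
  χc : ∀ g h : G, χ (g * h * g⁻¹) = χ h
  ψc : ∀ g h : G, ψ (g * h * g⁻¹) = ψ h
  /-- rationality -/
  χp : ∀ (g : G) (k : ℕ), k.Coprime (orderOf g) → χ (g ^ k) = χ g
  ψp : ∀ (g : G) (k : ℕ), k.Coprime (orderOf g) → ψ (g ^ k) = ψ g
  /-- congruence at `q`-elements -/
  χq : ∀ (q k : ℕ) (g : G), q.Prime → g ^ q ^ k = 1 → (q : ℤ) ∣ a - χ g
  ψq : ∀ (q k : ℕ) (g : G), q.Prime → g ^ q ^ k = 1 → (q : ℤ) ∣ b - ψ g
  /-- the multiplicity of the trivial character of a subgroup -/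
  χs : ∀ (H : Subgroup G) (s : Finset G), (∀ g, g ∈ s ↔ g ∈ H) →
    ∃ n : ℕ, ∑ g ∈ s, χ g = Nat.card H * n
  ψs : ∀ (H : Subgroup G) (s : Finset G), (∀ g, g ∈ s ↔ g ∈ H) →
    ∃ n : ℕ, ∑ g ∈ s, ψ g = Nat.card H * n
  /-- integrality of the central characters -/
  χω : ∀ g : G, ((a * cc g : ℕ) : ℤ) ∣ (p * m : ℕ) * χ g
  ψω : ∀ g : G, ((b * cc g : ℕ) : ℤ) ∣ (p * m : ℕ) * ψ g
  θω : ∀ g : G, ¬ p ∣ orderOf g → ((c * cc g : ℕ) : ℤ) ∣ (p * m : ℕ) * (χ g + ψ g - 1)
  /-- characters of `q`-defect zero vanish on `q`-singular elements -/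
  χz : ∀ (q : ℕ) (g : G), q.Prime → ¬ q * a ∣ p * m → q ∣ orderOf g → χ g = 0
  ψz : ∀ (q : ℕ) (g : G), q.Prime → ¬ q * b ∣ p * m → q ∣ orderOf g → ψ g = 0
  θz : ∀ (q : ℕ) (g : G), q.Prime → ¬ q * c ∣ p * m → q ∣ orderOf g → ¬ p ∣ orderOf g →
    χ g + ψ g - 1 = 0
  /-- the number `n` of ways of writing a generator of `P` as a product of a conjugate of `g` and
  a conjugate of `h`; no involution inverts `P` -/
  pair : ∀ g h : G, ¬ p ∣ orderOf g → ¬ p ∣ orderOf h → ∃ n : ℕ,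
    ((n * (cc g * cc h) * (a * b * c) : ℕ) : ℤ) = (p * m : ℕ) * ((a * b * c : ℕ) -
      (b * c : ℕ) * (χ g * χ h) - (a * c : ℕ) * (ψ g * ψ h) +
      (a * b : ℕ) * ((χ g + ψ g - 1) * (χ h + ψ h - 1))) ∧
    (orderOf g = 2 → orderOf h = 2 → n = 0)
  /-- column orthogonality -/
  col : ∀ g : G, ¬ p ∣ orderOf g → 1 + χ g ^ 2 + ψ g ^ 2 + t * (χ g + ψ g - 1) ^ 2 ≤ (cc g : ℤ)
  /-- a character outside the block has degree divisible by `p` -/
  dp : 1 + a ^ 2 + b ^ 2 + t * c ^ 2 < p * m → p ∈ degreePrimes G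

/-- data for the order of `U₃(7)` -/
abbrev D7 (G : Type*) [Group G] := Dat G 43 131712 42 343 384 14
/-- data for the order of `U₃(8)` -/
abbrev D8 (G : Type*) [Group G] := Dat G 19 290304 56 512 567 6
/-- data for the order of `U₃(9)` -/
abbrev D9 (G : Type*) [Group G] := Dat G 73 583200 72 729 800 24

variable {G : Type*} [Group G] [Finite G] {p m a b c t : ℕ}

theorem cc_dvd (g : G) : cc g ∣ Nat.card G := card_subgroup_dvd_card _

theorem card_dvd_cc {H : Subgroup G} {g : G} (h : ∀ x ∈ H, x * g = g * x) : Nat.card H ∣ cc g :=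
  card_dvd_of_le fun x hx => mem_centralizer_singleton_iff.2 (h x hx)

omit [Finite G] in
theorem Dat.χ_conj (D : Dat G p m a b c t) {g h : G} (e : IsConj g h) : D.χ g = D.χ h := by
  obtain ⟨x, rfl⟩ := isConj_iff.1 e
  exact (D.χc x g).symm

omit [Finite G] in
theorem Dat.ψ_conj (D : Dat G p m a b c t) {g h : G} (e : IsConj g h) : D.ψ g = D.ψ h := by
  obtain ⟨x, rfl⟩ := isConj_iff.1 e
  exact (D.ψc x g).symm

/-- the centraliser of a non-trivial element of order `≠ p` has order dividing `m` -/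
theorem Dat.cc_dvd_m (D : Dat G p m a b c t) (hp : p.Prime) {g : G} (h1 : g ≠ 1)
    (h2 : orderOf g ≠ p) : cc g ∣ m :=
  ((Nat.Prime.coprime_iff_not_dvd hp).2 fun h => h2 (D.cp g h1 h)).symm.dvd_of_dvd_mul_left
    (D.card ▸ cc_dvd g)

open Classical in
/-- the elements of a subgroup as a finset -/
noncomputable def fs (H : Subgroup G) : Finset G := (Set.toFinite (H : Set G)).toFinset

theorem mem_fs {H : Subgroup G} {g : G} : g ∈ fs H ↔ g ∈ H := by simp [fs]

theorem card_fs (H : Subgroup G) : (fs H).card = Nat.card H := by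
  rw [fs, ← Set.ncard_eq_toFinset_card _ (Set.toFinite _)]
  exact (Nat.card_coe_set_eq (H : Set G)).symm

/-- if `χ` has the constant value `w` on `H#` -/
theorem Dat.χ_const (D : Dat G p m a b c t) (H : Subgroup G) {w : ℤ}
    (h : ∀ g ∈ H, g ≠ 1 → D.χ g = w) :
    ∃ n : ℕ, (a : ℤ) + ((Nat.card H : ℤ) - 1) * w = Nat.card H * n := by
  classical
  obtain ⟨n, hn⟩ := D.χs H (fs H) fun _ => mem_fs
  refine ⟨n, ?_⟩
  rw [← hn, ← Finset.add_sum_erase _ _ (mem_fs.2 H.one_mem), D.χ1,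
    Finset.sum_congr rfl (g := fun _ => w) fun g hg =>
      h g (mem_fs.1 (Finset.mem_erase.1 hg).2) (Finset.mem_erase.1 hg).1,
    Finset.sum_const, Finset.card_erase_of_mem (mem_fs.2 H.one_mem), card_fs, nsmul_eq_mul,
    Nat.cast_sub (Nat.card_pos (α := H)), Nat.cast_one]

end Cfsg.Agent.Tri
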