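import Cfsg.Agent.Tri.Base
import Cfsg.Agent.Tri.B7
import Cfsg.Agent.S0016

/-! S3645, order of U3(7): the two-point stabiliser is cyclic. -/

set_option autoImplicit false
set_option linter.unusedSectionVars false

namespace Cfsg.Agent.Tri

open Subgroup

variable {G : Type*} [Group G] [Finite G]

namespace H7

variable {R H D : Subgroup G} {z h r s g w : G}

theorem cz (c : Commute g z) (hw : w ∈ zpowers z) : Commute g w := by
  obtain ⟨i, rfl⟩ := hw
  exact c.zpow_right i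

theorem cz' (ho : orderOf z = 7) (hw : w ∈ zpowers z) (h1 : w ≠ 1) (c : Commute g w) : Commute g z := by
  have : Fact (Nat.Prime 7) := ⟨by norm_num⟩
  obtain ⟨i, e⟩ := mem_zpowers_of_prime_card (G := zpowers z) ((Nat.card_zpowers z).trans ho)
    (g := ⟨w, hw⟩) (g' := ⟨z, mem_zpowers z⟩) (fun e => h1 (congrArg Subtype.val e))
  exact (show w ^ i = z from congrArg Subtype.val e) ▸ c.zpow_right i

theorem one (ho : orderOf z = 7) (hw : w ∈ zpowers z) {n : ℕ} (hn : n.Coprime 7) (e : w ^ n = 1) : w = 1 :=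
  orderOf_eq_one_iff.1 (Nat.eq_one_of_dvd_coprimes hn (orderOf_dvd_of_pow_eq_one e)
    (ho ▸ orderOf_dvd_of_mem_zpowers hw))

theorem act (ho : orderOf z = 7) (hN : H ≤ normalizer ((zpowers z : Subgroup G) : Set G)) :
    commutator H ≤ (centralizer {z}).subgroupOf H ∧ ((centralizer {z}).subgroupOf H).index ∣ 6 := by
  have hc : IsCyclic (zpowers z) := inferInstance
  let _ := (hc.mulAutMulEquiv _).toMonoidHom.commGroupOfInjective (hc.mulAutMulEquiv _).injective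
  have e : ((zpowers z).normalizerMonoidHom.comp (inclusion hN)).ker = (centralizer {z}).subgroupOf H := by
    rw [← MonoidHom.comap_ker, normalizerMonoidHom_ker, show centralizer ((zpowers z : Subgroup G) : Set G) =
      centralizer {z} by rw [zpowers_eq_closure, centralizer_closure]]
    rfl
  refine ⟨e ▸ Abelianization.commutator_subset_ker _, ?_⟩
  rw [← e, index_ker]
  refine (card_subgroup_dvd_card _).trans ?_
  rw [hc.card_mulAut, Nat.card_zpowers, ho]
  decide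

theorem nz (hc : D ≤ centralizer {z}) : ((zpowers z).subgroupOf D).Normal :=
  ⟨fun x hx g => by
    have := cz (g := g.1) (w := x.1) (mem_centralizer_singleton_iff.1 (hc g.2)) hx
    rwa [mem_subgroupOf, coe_mul, coe_mul, this.eq, coe_inv, mul_inv_cancel_right]⟩

theorem cq (ho : orderOf z = 7) (hz : z ∈ D) : Nat.card (D ⧸ (zpowers z).subgroupOf D) * 7 = Nat.card D := by
  rw [card_eq_card_quotient_mul_card_subgroup ((zpowers z).subgroupOf D),
    Nat.card_congr (subgroupOfEquivOfLe (zpowers_le.2 hz)).toEquiv, Nat.card_zpowers, ho]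

theorem k1 (ho : orderOf z = 7) (hn : h ∈ normalizer ((zpowers z : Subgroup G) : Set G))
    (hh : (orderOf h).Coprime 7) (hz : z ∈ R) (hc : R ≤ centralizer {z})
    (hf : ∀ r ∈ R, h * r = r * h → r ∈ zpowers z) (hr : r ∈ R)
    (e : r⁻¹ * (h * r * h⁻¹) ∈ zpowers z) : r ∈ zpowers z := by
  by_cases c : Commute h z
  · have e1 := (cz c e).symm.mul_pow (orderOf h)
    rw [show r⁻¹ * (h * r * h⁻¹) * h = r⁻¹ * h * r⁻¹⁻¹ by group, conj_pow, pow_orderOf_eq_one, mul_one,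
      mul_one, mul_inv_cancel] at e1
    exact hf r hr (mul_inv_eq_iff_eq_mul.1 (inv_mul_eq_one.1 (one ho e hh e1.symm)).symm)
  obtain ⟨y, hy⟩ := Finite.injective_iff_surjective.1 (show Function.Injective fun y : zpowers z =>
    (⟨y.1⁻¹ * (h * y * h⁻¹), mul_mem (inv_mem y.2) ((hn _).1 y.2)⟩ : zpowers z) from fun y y' e => by
      by_contra n
      refine c (cz' ho (mul_mem y'.2 (inv_mem y.2)) (fun e => n (Subtype.ext (mul_inv_eq_one.1 e).symm)) ?_)
      have := congrArg Subtype.val e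
      calc h * (y' * y.1⁻¹) = y' * (y'.1⁻¹ * (h * y' * h⁻¹)) * (y.1⁻¹ * (h * y * h⁻¹))⁻¹ * y.1⁻¹ * h *
            (h⁻¹ * y * y.1⁻¹ * h) := by group
        _ = _ := by rw [show y'.1⁻¹ * (h * y' * h⁻¹) = y.1⁻¹ * (h * y * h⁻¹) from this.symm]; group)
    ⟨_, inv_mem e⟩
  have e1 : y.1⁻¹ * (h * y * h⁻¹) = _ := congrArg Subtype.val hy
  have e2 := cz (cz (Commute.refl z) y.2).symm e
  refine (mul_mem_cancel_right y.2).1 (hf _ (mul_mem hr (zpowers_le.2 hz y.2)) ?_)
  calc h * (r * y) = r * (r⁻¹ * (h * r * h⁻¹) * y) * (y.1⁻¹ * (h * y * h⁻¹)) * h := by group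
    _ = _ := by rw [e1, ← e2.eq]; group

theorem r1 (hR : Nat.card R = 343) (hz : z ∈ R) (ho : orderOf z = 7) (hc : R ≤ centralizer {z})
    (hr : r ∈ R) (hs : s ∈ R) : r * s * r⁻¹ * s⁻¹ ∈ zpowers z := by
  have : Fact (Nat.Prime 7) := ⟨by norm_num⟩
  have := nz hc
  have e := cq ho hz
  have := (IsPGroup.isMulCommutative_of_card_eq_prime_sq (p := 7) (G := R ⧸ (zpowers z).subgroupOf R)
    (by omega)).is_comm.comm (QuotientGroup.mk ⟨r, hr⟩) (QuotientGroup.mk ⟨s, hs⟩)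
  exact (QuotientGroup.eq_one_iff (N := (zpowers z).subgroupOf R) (⟨r, hr⟩ * ⟨s, hs⟩ * ⟨r, hr⟩⁻¹ * ⟨s, hs⟩⁻¹)).1
    (by rw [QuotientGroup.mk_mul, QuotientGroup.mk_mul, QuotientGroup.mk_mul, this, QuotientGroup.mk_inv,
      QuotientGroup.mk_inv, mul_inv_cancel_right, mul_inv_cancel])

theorem k3 (hR : Nat.card R = 343) (ho : orderOf z = 7) (hh : h * h = 1) (c : Commute h z)
    (hn : h ∈ normalizer (R : Set G)) (hf : ∀ r ∈ R, h * r = r * h → r ∈ zpowers z)
    (hA : ∀ A ≤ R, A ⊓ zpowers z = ⊥ → Nat.card A ≤ 7) : ∃ r ∈ R, ∃ s ∈ R, ¬ Commute r s := by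
  by_contra n
  have ab : ∀ r ∈ R, ∀ s ∈ R, Commute r s := fun r hr s hs => by_contra fun e => n ⟨r, hr, s, hs, e⟩
  let φ : R →* G := MonoidHom.mk' (fun r => r * (h * r * h⁻¹)⁻¹) fun r s => by
    rw [mul_assoc r.1, ← mul_assoc (h * r * h⁻¹)⁻¹, (ab _ (inv_mem ((hn _).1 r.2)) _ s.2).eq, mul_assoc s.1,
      (ab _ (inv_mem ((hn _).1 r.2)) _ (inv_mem ((hn _).1 s.2))).eq, coe_mul]
    group
  have e1 := hA φ.range (by rintro _ ⟨r, rfl⟩; exact mul_mem r.2 (inv_mem ((hn _).1 r.2)))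
    (eq_bot_iff.2 (by
      rintro _ ⟨⟨r, rfl⟩, e⟩
      refine one ho e (n := 2) (by norm_num) ?_
      rw [sq]
      nth_rw 2 [← mul_inv_cancel_right (φ r) h]
      rw [← (cz c e).eq]
      change r * (h * r * h⁻¹)⁻¹ * (h * (r * (h * r * h⁻¹)⁻¹) * h⁻¹) = 1
      rw [inv_eq_of_mul_eq_one_right hh]
      calc _ = r * (h * h)⁻¹ * r.1⁻¹ * (h * h)⁻¹ * (h * h) := by group
        _ = 1 := by rw [hh]; group))
  have e2 : Nat.card φ.ker ≤ 7 := by
    rw [← ho, ← Nat.card_zpowers]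
    exact Nat.card_le_card_of_injective (fun r => ⟨r.1.1, hf _ r.1.2
      (mul_inv_eq_iff_eq_mul.1 (mul_inv_eq_one.1 r.2).symm)⟩)
      fun _ _ e => Subtype.ext (Subtype.ext (Subtype.mk.inj e))
  have e3 := φ.ker.card_mul_index
  rw [index_ker, hR] at e3
  nlinarith

theorem sq7 : ∀ j : ZMod 7, 1 + j * j ≠ 0 := by decide

theorem k4 (hR : Nat.card R = 343) (hz : z ∈ R) (ho : orderOf z = 7) (hc : R ≤ centralizer {z})
    (hn : h ∈ normalizer (R : Set G)) (hn' : h ∈ normalizer ((zpowers z : Subgroup G) : Set G))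
    (hr : r ∈ R) (hs : s ∈ R) (c : ¬ Commute r s) (e : r * (h * h * r * (h * h)⁻¹) ∈ zpowers z) :
    Commute h z := by
  have : Fact (Nat.Prime 7) := ⟨by norm_num⟩
  have cR : ∀ {x w}, x ∈ R → w ∈ zpowers z → Commute x w := fun hx =>
    cz (mem_centralizer_singleton_iff.1 (hc hx))
  have h1 := (hn _).1 hr
  rw [show h * h * r * (h * h)⁻¹ = h * (h * r * h⁻¹) * h⁻¹ by group] at e
  obtain ⟨q, hq⟩ : ∃ q, q = h * r * h⁻¹ := ⟨_, rfl⟩
  rw [← hq] at e h1
  have h2 := r1 hR hz ho hc hr h1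
  by_cases c1 : r * q * r⁻¹ * q⁻¹ = 1
  swap
  · refine cz' ho h2 c1 (mul_inv_eq_iff_eq_mul.1 ?_)
    calc _ = (h * r * h⁻¹) * r⁻¹ * (r * (h * q * h⁻¹) * (h * r * h⁻¹)⁻¹) * (r * (h * q * h⁻¹))⁻¹ * r := by group
      _ = r⁻¹ * (r * q * r⁻¹ * q⁻¹ * r) := by rw [← hq, ← (cR (inv_mem h1) e).eq]; group
      _ = _ := by rw [← (cR hr h2).eq, inv_mul_cancel_left]
  exfalso
  obtain ⟨D, hD⟩ : ∃ D : Subgroup G, D = R ⊓ centralizer {r} := ⟨_, rfl⟩
  have mD : ∀ {x}, x ∈ R → Commute x r → x ∈ D := fun a b => hD ▸ ⟨a, mem_centralizer_singleton_iff.2 b⟩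
  have DR : D ≤ R := hD ▸ inf_le_left
  have := nz (DR.trans hc)
  have e1 := cq ho (mD hz (cR hr (mem_zpowers z)).symm)
  have rD := mD hr (Commute.refl r)
  have qD := mD h1 (show q * r = r * q by rw [← one_mul (q * r), ← c1]; group)
  have tD : h * q * h⁻¹ ∈ D := (mul_mem_cancel_left rD).1 (mD (zpowers_le.2 hz e) (cR hr e).symm)
  have n1 : (QuotientGroup.mk ⟨r, rD⟩ : D ⧸ (zpowers z).subgroupOf D) ≠ 1 := fun e =>
    c (cR hs ((QuotientGroup.eq_one_iff (⟨r, rD⟩ : D)).1 e)).symm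
  have e2 : Nat.card (D ⧸ (zpowers z).subgroupOf D) = 7 := by
    obtain ⟨i, hi, e3⟩ := (Nat.dvd_prime_pow (m := 3) (show Nat.Prime 7 by norm_num)).1
      (show Nat.card D ∣ 343 from hR ▸ card_dvd_of_le DR)
    have n2 : Nat.card D ≠ 343 := fun e => c (mem_centralizer_singleton_iff.1
      (hD ▸ (eq_of_le_of_card_ge DR (by omega)).ge hs).2).symm
    have n3 : Nat.card (D ⧸ (zpowers z).subgroupOf D) ≠ 1 := fun e =>
      n1 ((Nat.card_eq_one_iff_unique.1 e).1.elim _ _)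
    interval_cases i <;> omega
  obtain ⟨i, e3⟩ := mem_zpowers_of_prime_card e2 n1 (g' := QuotientGroup.mk ⟨q, qD⟩)
  dsimp only at e3
  have e4 : (r ^ i)⁻¹ * q ∈ zpowers z := by
    rw [← QuotientGroup.mk_zpow] at e3
    exact QuotientGroup.eq (s := (zpowers z).subgroupOf D).1 e3
  have e5 : (QuotientGroup.mk (⟨q, qD⟩ ^ i) : D ⧸ (zpowers z).subgroupOf D) = QuotientGroup.mk ⟨_, tD⟩ :=
    QuotientGroup.eq.2 (show (q ^ i)⁻¹ * (h * q * h⁻¹) ∈ zpowers z by
      have := (hn' _).1 e4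
      rwa [show h * ((r ^ i)⁻¹ * q) * h⁻¹ = (h * r ^ i * h⁻¹)⁻¹ * (h * q * h⁻¹) by group, ← conj_zpow, ← hq] at this)
  have e6 : (QuotientGroup.mk ⟨r, rD⟩ : D ⧸ (zpowers z).subgroupOf D) * QuotientGroup.mk ⟨_, tD⟩ = 1 := by
    rw [← QuotientGroup.mk_mul, QuotientGroup.eq_one_iff]
    exact e
  rw [← e5, QuotientGroup.mk_zpow, ← e3, ← zpow_mul, ← zpow_one_add, ← orderOf_dvd_iff_zpow_eq_one,
    orderOf_eq_prime (e2 ▸ pow_card_eq_one') n1, ← ZMod.intCast_zmod_eq_zero_iff_dvd] at e6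
  push_cast at e6
  exact sq7 _ e6

end H7

/-- Pure group theory.  `R` has order 343, `z ∈ Z(R)` of order 7, `Z = zpowers z`, `H` of order 48
normalises `R` and `Z`, no non-identity element of `H` centralises an element of `R \ Z`, `X = C_H(z)`
has order 8, and no subgroup of `R` of order `≥ 49` meets `Z` trivially.  Then `H` is cyclic.
(K1) if `h ∈ H` has prime order `q ∈ {2,3}` and `r⁻¹ * h r h⁻¹ ∈ Z` (`r ∈ R`) then `r ∈ Z`: `⟨h⟩` acts
on the 7 elements of the coset `r Z`, so fixes one.  Hence for `1 ≠ h ∈ H` not all `r ∈ R` satisfy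
`r⁻¹ h r h⁻¹ ∈ Z` (pass to a power of prime order).
(K2) an involution `h ∈ H` inverts `R/Z` (abelian, order 49): the coset of `r * h r h⁻¹` is fixed.
So `H` has at most one involution `u₀` (the product of two acts trivially on `R/Z`); `u₀ ∈ X`.
(K3) `R` is not abelian: else the image of `r ↦ r * (u₀ r u₀⁻¹)⁻¹` (kernel `C_R(u₀) ≤ Z`) is a
subgroup of order `≥ 49` inverted by `u₀`, meeting `Z` trivially.  So `C_R(r)` has order 49 for
`r ∈ R \ Z` (`= ⟨r, z⟩`; the centre of `R` is `Z`), `r ^ 7 ∈ Z`, commutators lie in `Z`.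
(K4) no `u ∈ H \ X` has order 4: `u² = u₀`, `u` inverts `z`.  For `r ∈ R \ Z`, `s = u r u⁻¹`: if
`s` commutes with `r` then `s ∈ r^i Z`, so `r⁻¹ Z = u² r u⁻² Z = r^(i²) Z`, `7 ∣ i² + 1`, false.  So
`c = ⁅r,s⁆ ∈ Z#`, and `u c u⁻¹ = ⁅s, r⁻¹ ζ⁆ = ⁅r,s⁆ = c` (class 2), but `u` inverts `c`.
(K5) a Sylow 2-subgroup `T ≥ X` of `H` (`X ⊴ H`, order 16) has a unique involution, so is cyclic or
generalised quaternion (`S0016`); the latter is generated by elements of order 4, one of which lies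
outside `X`.  So `T`, `X` are cyclic; `|H : C_H(X)|` divides 3 and `|Aut X| = 4`, so `X ≤ Z(H)`;
`H/X` embeds in the cyclic group `Aut Z`, so `H` is abelian
(`commutative_of_cyclic_center_quotient`), and an element of order 16 times one of order 3
generates `H`. -/
theorem cyc48 {R H : Subgroup G} {z : G} (hR : Nat.card R = 343) (hz : z ∈ R) (ho : orderOf z = 7)
    (hc : R ≤ centralizer {z}) (hH : Nat.card H = 48) (hN : H ≤ normalizer (R : Set G))
    (hNz : H ≤ normalizer ((zpowers z : Subgroup G) : Set G))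
    (hf : ∀ h ∈ H, h ≠ 1 → ∀ r ∈ R, h * r = r * h → r ∈ zpowers z)
    (hX : Nat.card ↥(H ⊓ centralizer {z}) = 8)
    (hA : ∀ A ≤ R, A ⊓ zpowers z = ⊥ → Nat.card A ≤ 7) : IsCyclic H := by
  have k1 : ∀ h ∈ H, h ≠ 1 → ∀ r ∈ R, r⁻¹ * (h * r * h⁻¹) ∈ zpowers z → r ∈ zpowers z :=
    fun h hh h1 r hr => H7.k1 ho (hNz hh) (Nat.Coprime.coprime_dvd_left (hH ▸ orderOf_dvd_natCard H hh)
      (by norm_num)) hz hc (hf h hh h1) hr
  have k2 : ∀ h ∈ H, h ≠ 1 → h * h = 1 → ∀ r ∈ R, r * (h * r * h⁻¹) ∈ zpowers z := fun h hh h1 h2 r hr => by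
    have := (hN hh _).1 hr
    refine k1 h hh h1 _ (mul_mem hr this) ?_
    convert H7.r1 hR hz ho hc (inv_mem this) (inv_mem hr) using 1
    calc _ = (h * r * h⁻¹)⁻¹ * r⁻¹ * (h * r * h⁻¹) * (h * h * r * (h * h)⁻¹) := by group
      _ = _ := by rw [h2]; group
  have un : ∀ h ∈ H, ∀ h' ∈ H, orderOf h = 2 → orderOf h' = 2 → h = h' := fun h hh h' hh' o o' => by
    obtain ⟨a1, a2⟩ := (orderOf_eq_prime_iff (p := 2)).1 o
    obtain ⟨b1, b2⟩ := (orderOf_eq_prime_iff (p := 2)).1 o'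
    rw [sq] at a1 b1
    by_contra n
    have := card_le_of_le (show R ≤ zpowers z from fun r hr => k1 _ (mul_mem hh hh')
      (fun e => n (mul_right_cancel (e.trans b1.symm))) r hr (by
        have c1 := k2 h hh a2 a1 _ (inv_mem hr)
        have c2 := (hNz hh _).1 (k2 h' hh' b2 b1 r hr)
        convert mul_mem c1 c2 using 1
        group))
    rw [hR, Nat.card_zpowers, ho] at this
    omega
  obtain ⟨⟨u, hu, hu'⟩, ou⟩ := exists_prime_orderOf_dvd_card' (G := ↥(H ⊓ centralizer {z})) 2 (by rw [hX]; norm_num)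
  replace ou : orderOf u = 2 := (orderOf_coe _).trans ou
  obtain ⟨u1, u2⟩ := (orderOf_eq_prime_iff (p := 2)).1 ou
  rw [sq] at u1
  obtain ⟨r, hr, s, hs, c⟩ := H7.k3 hR ho u1 (mem_centralizer_singleton_iff.1 hu') (hN hu) (hf u hu u2) hA
  have k4 : ∀ h ∈ H, orderOf h = 4 → h ∈ centralizer {z} := fun h hh o => by
    have e : orderOf (h * h) = 2 := by rw [← sq, orderOf_pow, o]; rfl
    refine mem_centralizer_singleton_iff.2 (H7.k4 hR hz ho hc (hN hh) (hNz hh) hr hs c ?_)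
    rw [un _ (mul_mem hh hh) u hu e ou]
    exact k2 u hu u2 u1 r hr
  have cX : Nat.card ((centralizer {z}).subgroupOf H) = 8 := by
    rw [← inf_subgroupOf_left, Nat.card_congr (subgroupOfEquivOfLe inf_le_left).toEquiv, hX]
  have iX : 2 ∣ ((centralizer {z}).subgroupOf H).index := by
    have := ((centralizer {z}).subgroupOf H).card_mul_index
    rw [cX, hH] at this
    omega
  have : IsZGroup H := ⟨fun p hp P => by
    have := Fact.mk hp
    by_cases e : p = 2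
    · subst e
      refine (Grp.isCyclic_or_quaternion P.isPGroup' fun x y hx hy => ?_).resolve_right ?_
      · rw [show y = x from Subtype.ext (Subtype.ext (un _ y.1.2 _ x.1.2 (by simpa using hy) (by simpa using hx)))]
        exact mem_zpowers _
      rintro ⟨-, n, -, ⟨e⟩⟩
      have a : ∀ i, (e.symm (.xa i)).1 ∈ (centralizer {z}).subgroupOf H := fun i =>
        k4 _ (e.symm (.xa i)).1.2 (by simp [QuaternionGroup.orderOf_xa])
      refine P.not_dvd_index (iX.trans (index_dvd_of_le fun t ht => ?_))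
      obtain ⟨y, e1⟩ := e.symm.surjective ⟨t, ht⟩
      rw [show t = (e.symm y).1 from (congrArg Subtype.val e1).symm]
      rcases y with i | i
      · have := mul_mem (a (2 ^ n : ℕ)) (a i)
        rwa [← coe_mul, ← map_mul, QuaternionGroup.xa_mul_xa, add_sub_cancel_left] at this
      · exact a i
    · obtain ⟨k, hk⟩ := P.isPGroup'.exists_card_eq
      have := Fact.mk Nat.prime_three
      refine isCyclic_of_card_dvd_prime (p := 3) (Nat.Coprime.dvd_of_dvd_mul_left (m := 2 ^ 4) ?_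
        (hH ▸ card_subgroup_dvd_card P.1 : _ ∣ 48))
      exact hk ▸ Nat.Coprime.pow _ _ ((Nat.coprime_primes hp Nat.prime_two).2 e)⟩
  have a1 := (H7.act ho hNz).1
  have a2 := (IsZGroup.coprime_commutator_index H).coprime_dvd_right (iX.trans (index_dvd_of_le a1))
  refine isCyclic_of_injective Abelianization.of ((MonoidHom.ker_eq_bot_iff _).1 ?_)
  rw [Abelianization.ker_of, ← card_eq_one]
  exact Nat.eq_one_of_dvd_coprimes (a2.pow_right 3) dvd_rfl (cX ▸ card_dvd_of_le a1 : _ ∣ 8)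

/-- Apply `cyc48` with `z` from `D7.exZ`, `D7.syl`, `D7.card_H`.  `hf`: `r ∈ R \ Z` has `cc r ∣ 343`
(`D7.sev`) while `orderOf h ∣ 48`.  `hX`: `|H : X|` divides 6 (`H/X` embeds in `Aut Z`) and
`|X| ∣ gcd (48, 2744) = 8`.  `hA`: `χ = 0` on `A#`, so `|A| ∣ 42` by `Dat.χ_const`, and `|A| ∣ 343`. -/
theorem D7.cyc (D : D7 G) [Fact (Nat.Prime 7)] (R R' : Sylow 7 G) (h : R' ≠ R) :
    IsCyclic ↥(normalizer ((R : Subgroup G) : Set G) ⊓ normalizer ((R' : Subgroup G) : Set G)) := by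
  obtain ⟨z, hz, ho, hZ⟩ := D.exZ R
  obtain ⟨-, c1, c2, c3, -⟩ := D.syl R hz ho hZ
  have hH := D.card_H R R' h
  have hR : Nat.card R = 343 := by
    rw [R.card_eq_multiplicity, D.card, show 43 * 131712 = 7 ^ 3 * 16512 from rfl,
      Nat.factorization_mul (by norm_num) (by norm_num), Nat.Prime.factorization_pow Fact.out]
    simp [Nat.factorization_eq_zero_of_not_dvd (show ¬ 7 ∣ 16512 by norm_num)]
  have sv : ∀ r ∈ (R : Subgroup G), r ∉ zpowers z → D.χ r = 0 ∧ cc r ∣ 343 := fun r hr n => by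
    obtain ⟨k, e⟩ := R.isPGroup' ⟨r, hr⟩
    exact (D.sev (y := r) (fun e => n (e ▸ one_mem _)) (congrArg Subtype.val e)).resolve_right
      fun e => n ((hZ r hr).1 e.1).1
  have hN := (inf_le_left : _ ⊓ normalizer ((R' : Subgroup G) : Set G) ≤ _).trans c3.ge
  refine cyc48 hR hz ho c2 hH inf_le_left hN (fun g hg g1 r hr e => by_contra fun n => g1 ?_) ?_
    fun A hA e => ?_
  · exact orderOf_eq_one_iff.1 (Nat.eq_one_of_dvd_coprimes (show Nat.Coprime 48 343 by norm_num)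
      (hH ▸ orderOf_dvd_natCard _ hg)
      ((orderOf_dvd_natCard _ (mem_centralizer_singleton_iff.2 e)).trans (sv r hr n).2))
  · have a1 := Nat.le_of_dvd (by norm_num) (H7.act ho hN).2
    have a2 := card_mul_index ((centralizer {z}).subgroupOf
      (normalizer ((R : Subgroup G) : Set G) ⊓ normalizer ((R' : Subgroup G) : Set G)))
    rw [hH, ← inf_subgroupOf_left, Nat.card_congr (subgroupOfEquivOfLe inf_le_left).toEquiv,
      inf_subgroupOf_left] at a2
    have a3 : _ ≤ 8 := Nat.le_of_dvd (by norm_num) (Nat.dvd_gcd ((card_dvd_of_le inf_le_left).trans hH.dvd)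
      ((card_dvd_of_le inf_le_right).trans c1.dvd) : Nat.card ↥(normalizer ((R : Subgroup G) : Set G) ⊓
        normalizer ((R' : Subgroup G) : Set G) ⊓ centralizer {z}) ∣ 8)
    nlinarith
  · obtain ⟨n, e1⟩ := D.χ_const A (w := 0) fun g hg g1 => (sv g (hA hg) fun n => g1 (e.le ⟨hg, n⟩)).1
    rw [mul_zero, add_zero] at e1
    exact Nat.le_of_dvd (by norm_num) (Nat.dvd_gcd ⟨n, by exact_mod_cast e1⟩ (hR ▸ card_dvd_of_le hA) :
      _ ∣ Nat.gcd 42 343)

end Cfsg.Agent.Tri
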