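import Cfsg.Agent.Tri.Base


/-! S3645, order of U3(9): values of the rational characters of degrees 72 and 729. -/

set_option autoImplicit false

namespace Cfsg.Agent.Tri

open Subgroup

variable {G : Type*} [Group G] [Finite G]

omit [Finite G] in
theorem D9.np (D : D9 G) {g : G} {q : ℕ} (h : q ∣ orderOf g) (h1 : ¬ q ∣ 73) : ¬ 73 ∣ orderOf g := fun e =>
  h1 (D.cp g (fun c => by simp [c] at e) (e.trans (orderOf_dvd_natCard _
    (mem_centralizer_singleton_iff.2 rfl))) ▸ h)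

omit [Finite G] in
theorem D9.sing (D : D9 G) {g : G} (h : 2 ∣ orderOf g ∨ 5 ∣ orderOf g) :
    D.ψ g = 1 - D.χ g ∧ ∃ n : ℕ, (n : ℤ) * cc g ^ 2 = 7300 * (5832 - 81 * D.χ g ^ 2 - 8 * (1 - D.χ g) ^ 2) ∧
      (orderOf g = 2 → n = 0) := by
  have np : ¬ 73 ∣ orderOf g := h.elim (D.np · (by decide)) (D.np · (by decide))
  have e : D.χ g + D.ψ g - 1 = 0 := h.elim (D.θz 2 g Nat.prime_two (by decide) · np)
    (D.θz 5 g (by norm_num) (by decide) · np)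
  obtain ⟨n, h1, h2⟩ := D.pair g g np np
  have e' : D.ψ g = 1 - D.χ g := by omega
  refine ⟨e', n, ?_, fun o => h2 o o⟩
  rw [e, e'] at h1
  push_cast at h1
  linarith

theorem D9.bnd (D : D9 G) {g : G} (h : 2 ∣ orderOf g ∨ 5 ∣ orderOf g) :
    D.ψ g = 1 - D.χ g ∧ -8 ≤ D.χ g ∧ D.χ g ≤ 8 := by
  obtain ⟨e, n, h1, -⟩ := D.sing h
  have : (0 : ℤ) ≤ n * cc g ^ 2 := by positivity
  exact ⟨e, by nlinarith, by nlinarith⟩

theorem D9.inv (D : D9 G) {t : G} (ht : orderOf t = 2) : D.χ t = -8 ∧ D.ψ t = 9 := by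
  obtain ⟨e, n, h1, h2⟩ := D.sing (g := t) (Or.inl ht.symm.dvd)
  obtain ⟨-, l1, l2⟩ := D.bnd (g := t) (Or.inl ht.symm.dvd)
  rw [h2 ht, Nat.cast_zero, zero_mul] at h1
  rw [e]
  generalize D.χ t = u at h1 l1 l2 ⊢
  interval_cases u <;> omega

theorem D9.not27 (D : D9 G) {g : G} (h : D.ψ g = 9) : ¬ 27 ∣ cc g := fun ⟨k, e⟩ => by
  have := D.ψω g
  rw [h, e, ← mul_assoc, Nat.cast_mul] at this
  exact absurd ((dvd_mul_right _ _).trans this) (by decide)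

theorem D9.five (D : D9 G) {f : G} (hf : orderOf f = 5) (h9 : 9 ∣ cc f) :
    D.χ f = -8 ∧ D.ψ f = 9 := by
  obtain ⟨e, l1, l2⟩ := D.bnd (g := f) (Or.inr hf.symm.dvd)
  have h1 := D.ψq 5 1 f (by norm_num) (by rw [pow_one, ← hf, pow_orderOf_eq_one])
  obtain ⟨k, hk⟩ := h9
  have h2 := D.ψω f
  rw [hk, ← mul_assoc, Nat.cast_mul] at h2
  have h3 := (dvd_mul_right _ _).trans h2
  push_cast at h1 h3
  omega

theorem D9.five27 (D : D9 G) {f : G} (hf : orderOf f = 5) : ¬ 27 ∣ cc f := fun h =>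
  D.not27 (D.five hf (Dvd.dvd.trans (by decide) h)).2 h

set_option synthInstance.maxSize 1000 in
theorem v9_chk : ∀ i ≤ 5, ∀ j ≤ 6, ∀ k ≤ 2, ∀ w ∈ ([-9, -6, -3, 0, 3, 6] : List ℤ),
    ((2 ^ i * 3 ^ j * 5 ^ k : ℕ) : ℤ) ∣ 53217 * (w - 1) →
    ((2 ^ i * 3 ^ j * 5 ^ k : ℕ) : ℤ) ^ 2 ∣ 5913 * (7200 - 100 * w ^ 2 + 9 * (w - 1) ^ 2) →
    1 + w ^ 2 + 24 * (w - 1) ^ 2 ≤ ((2 ^ i * 3 ^ j * 5 ^ k : ℕ) : ℤ) →
    (w = 0 ∧ 2 ^ i * 3 ^ j * 5 ^ k ∣ 81) ∨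
      (w = -9 ∧ (2 ^ i * 3 ^ j * 5 ^ k = 3645 ∨ 2 ^ i * 3 ^ j * 5 ^ k = 7290)) := by decide +kernel

theorem D9.thr (D : D9 G) {y : G} {k : ℕ} (h1 : y ≠ 1) (hy : y ^ 3 ^ k = 1) :
    (D.χ y = 0 ∧ cc y ∣ 81) ∨ (D.χ y = -9 ∧ (cc y = 3645 ∨ cc y = 7290)) := by
  have o : 3 ∣ orderOf y := by
    obtain ⟨i, -, e⟩ := (Nat.dvd_prime_pow Nat.prime_three).1 (orderOf_dvd_of_pow_eq_one hy)
    exact e ▸ dvd_pow_self 3 fun c => h1 (orderOf_eq_one_iff.1 (by rw [e, c, pow_zero]))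
  have np := D.np o (by decide)
  have e := D.ψz 3 y Nat.prime_three (by decide) o
  have a1 := D.χq 3 k y Nat.prime_three hy
  obtain ⟨n, a2, -⟩ := D.pair y y np np
  have a3 := D.θω y np
  have a4 := D.col y np
  have a5 := D.cc_dvd_m (by norm_num) h1 fun c => np c.symm.dvd
  rw [e] at a2 a3 a4
  push_cast at a1 a2 a3 a4
  generalize D.χ y = w at *
  have b2 : (cc y : ℤ) ^ 2 * n = 5913 * (7200 - 100 * w ^ 2 + 9 * (w - 1) ^ 2) := by linarith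
  have b3 : (cc y : ℤ) ∣ 53217 * (w - 1) := (mul_dvd_mul_iff_left (by norm_num : (800 : ℤ) ≠ 0)).1 (by
    rwa [show 800 * (53217 * (w - 1)) = 42573600 * (w + 0 - 1) by ring])
  have b4 : (0 : ℤ) ≤ cc y ^ 2 * n := by positivity
  have l1 : -10 < w := by nlinarith
  have l2 : w < 9 := by nlinarith
  obtain ⟨_, _, c1, c2, c3⟩ := (Nat.dvd_mul (m := 2 ^ 5 * 3 ^ 6) (n := 5 ^ 2)).1 a5
  obtain ⟨_, _, c4, c5, rfl⟩ := Nat.dvd_mul.1 c1
  obtain ⟨i, hi, rfl⟩ := (Nat.dvd_prime_pow Nat.prime_two).1 c4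
  obtain ⟨j, hj, rfl⟩ := (Nat.dvd_prime_pow Nat.prime_three).1 c5
  obtain ⟨l, hl, rfl⟩ := (Nat.dvd_prime_pow Nat.prime_five).1 c2
  rw [← c3] at b2 b3 a4 ⊢
  exact v9_chk i hi j hj l hl w (by simp; omega) b3 ⟨_, b2.symm⟩ (by linarith)

theorem D9.cnt (D : D9 G) [Fact (Nat.Prime 3)] (R : Sylow 3 G) :
    {y : G | y ∈ (R : Subgroup G) ∧ D.χ y = -9}.ncard = 8 := by
  classical
  obtain ⟨n, hn⟩ := D.χs R (fs R) fun _ => mem_fs
  have h1 := Nat.le_of_dvd Nat.card_pos (R.pow_dvd_card_of_pow_dvd_card (n := 6) (by rw [D.card]; decide))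
  rw [Finset.sum_congr rfl (g := fun g => (if g = 1 then 72 else 0) + if D.χ g = -9 then -9 else 0) fun g hg => by
      by_cases e : g = 1
      · simp [e, D.χ1]
      obtain ⟨k, hk⟩ := R.2 ⟨g, mem_fs.1 hg⟩
      rcases D.thr e (congrArg Subtype.val hk) with h | h <;> simp [e, h.1],
    Finset.sum_add_distrib, Finset.sum_ite_eq', if_pos (mem_fs.2 (one_mem _)), ← Finset.sum_filter,
    Finset.sum_const, nsmul_eq_mul] at hn
  rw [show {y : G | y ∈ (R : Subgroup G) ∧ D.χ y = -9} = ((fs R).filter fun g => D.χ g = -9 : Finset G) by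
    ext; simp [mem_fs], Set.ncard_coe_finset]
  rcases n with _ | n
  · omega
  · have : (729 : ℤ) * 1 ≤ Nat.card R * ((n + 1 : ℕ) : ℤ) :=
      mul_le_mul (by exact_mod_cast h1) (by omega) zero_le_one (by positivity)
    omega

end Cfsg.Agent.Tri
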