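import Cfsg.Agent.Tri.Base
import Cfsg.Agent.Tri.V9
import Cfsg.Agent.S0985

/-! S3645, order of U3(9): the centre of a Sylow 3-subgroup. -/

set_option autoImplicit false

namespace Cfsg.Agent.Tri

open Subgroup

variable {G : Type*} [Group G] [Finite G]

/-- conjugation action on an invariant set -/
@[reducible] def z9Act (Y : Subgroup G) (S : Set G) (hn : ∀ y ∈ Y, ∀ s ∈ S, y * s * y⁻¹ ∈ S) :
    MulAction Y S where
  smul y s := ⟨y * s * (y : G)⁻¹, hn y y.2 s s.2⟩
  one_smul s := Subtype.ext (by change ((1 : Y) : G) * s * ((1 : Y) : G)⁻¹ = s; simp)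
  mul_smul y w s := Subtype.ext (by
    change ((y * w : Y) : G) * s * ((y * w : Y) : G)⁻¹ = y * (w * s * (w : G)⁻¹) * (y : G)⁻¹
    simp [mul_assoc])

theorem z9_fix {p : ℕ} (hp : p.Prime) {a : G} (ap : orderOf a = p) {S : Set G}
    (hn : ∀ s ∈ S, a * s * a⁻¹ ∈ S) :
    S.ncard ≡ {s | s ∈ S ∧ a * s = s * a}.ncard [MOD p] := by
  have hn' : ∀ y ∈ zpowers a, ∀ s ∈ S, y * s * y⁻¹ ∈ S := by
    intro y hy
    obtain ⟨n, rfl⟩ := (mem_powers_iff_mem_zpowers.2 hy)
    induction n with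
    | zero => simp
    | succ n ih =>
      intro s hs
      have := hn _ (ih (pow_mem (mem_zpowers a) n) s hs)
      simp only at this ⊢
      rwa [pow_succ', mul_inv_rev, ← mul_assoc, mul_assoc a, mul_assoc a]
  let := z9Act (zpowers a) S hn'
  have : Fact p.Prime := ⟨hp⟩
  have hY : IsPGroup p (zpowers a) := IsPGroup.of_card (n := 1) (by rw [Nat.card_zpowers, ap, pow_one])
  have h := hY.card_modEq_card_fixedPoints S
  rw [← Nat.card_coe_set_eq, ← Nat.card_coe_set_eq]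
  convert h using 1
  have hc : ∀ s : G, a * s = s * a → ∀ y ∈ zpowers a, y * s * y⁻¹ = s := by
    rintro s e y ⟨n, rfl⟩
    exact mul_inv_eq_iff_eq_mul.2 (Commute.zpow_left e n).eq
  exact (Nat.card_congr ⟨fun s => ⟨s.1.1, s.1.2, mul_inv_eq_iff_eq_mul.1
    (congrArg Subtype.val (s.2 ⟨a, mem_zpowers a⟩))⟩, fun s => ⟨⟨s.1, s.2.1⟩, fun y =>
      Subtype.ext (hc _ s.2.2 y y.2)⟩, fun _ => rfl, fun _ => rfl⟩).symm

theorem z9_card {C : Type*} [Group C] [Finite C] [Fact (Nat.Prime 3)] {m : ℕ}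
    (h : Nat.card C = 729 * m) (hm : ¬ 3 ∣ m) (R : Sylow 3 C) :
    Nat.card (R : Subgroup C) = 729 ∧ (R : Subgroup C).index = m := by
  have h0 : m ≠ 0 := fun e => hm (e ▸ dvd_zero 3)
  have h1 : Nat.card (R : Subgroup C) = 729 := by
    rw [Sylow.card_eq_multiplicity, h, show 729 = 3 ^ 6 by norm_num,
      Nat.factorization_mul (by norm_num) h0, Finsupp.add_apply, Nat.prime_three.factorization_pow,
      Nat.factorization_eq_zero_of_not_dvd hm]
    simp
  refine ⟨h1, ?_⟩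
  have := (R : Subgroup C).card_mul_index
  rw [h1, h] at this
  omega

theorem z9_norm5 {C : Type*} [Group C] [Finite C] [Fact (Nat.Prime 3)]
    (h : Nat.card C = 3645) (R : Sylow 3 C) : (R : Subgroup C).Normal := by
  have h1 := R.card_dvd_index
  rw [(z9_card (m := 5) h (by norm_num) R).2] at h1
  have h2 := card_sylow_modEq_one 3 C
  have h3 : Nat.card (Sylow 3 C) = 1 := by
    rcases (Nat.dvd_prime Nat.prime_five).1 h1 with e | e
    · exact e
    · rw [e] at h2; exact absurd h2 (by decide)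
  have := (Nat.card_eq_one_iff_unique.1 h3).1
  exact R.normal_of_subsingleton

/-- a group of order 3645 or 7290 has a normal Sylow 3-subgroup: `n₃ ∣ 10`, `n₃ ∈ {1, 10}`; if
`n₃ = 10` the order is `7290 = 2 * odd`, there is a subgroup `M` of index 2 (Burnside:
`IsCyclic.isComplement'`/`MonoidHom.ker_transferSylow_isComplement'`, or the sign of the regular
action), all Sylow 3-subgroups lie in `M` and `n₃(M) ∣ 5`. -/
theorem syl3_normal {C : Type*} [Group C] [Finite C] [Fact (Nat.Prime 3)]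
    (h : Nat.card C = 3645 ∨ Nat.card C = 7290) (R : Sylow 3 C) : (R : Subgroup C).Normal := by
  rcases h with h | h
  · exact z9_norm5 h R
  have : Fact (Nat.Prime 2) := ⟨Nat.prime_two⟩
  obtain ⟨P⟩ : Nonempty (Sylow 2 C) := inferInstance
  have hP : Nat.card (P : Subgroup C) = 2 := by
    rw [Sylow.card_eq_multiplicity, h, show 7290 = 2 ^ 1 * 3645 by norm_num,
      Nat.factorization_mul (by norm_num) (by norm_num), Finsupp.add_apply,
      Nat.prime_two.factorization_pow, Nat.factorization_eq_zero_of_not_dvd (by norm_num)]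
    simp
  have hp : (Nat.card C).minFac = 2 := by rw [h]; norm_num
  have hc := IsCyclic.isComplement' hp (P := P) (isCyclic_of_prime_card hP)
  set M := (MonoidHom.transferSylow P ((isCyclic_of_prime_card hP).normalizer_le_centralizer hp)).ker
  have hi : M.index = 2 := by rw [hc.symm.index_eq_card, hP]
  have hM : Nat.card M = 3645 := by
    have := M.card_mul_index
    rw [hi, h] at this
    omega
  have hle : (R : Subgroup C) ≤ M := fun x hx => by
    have h1 := (R : Subgroup C).orderOf_dvd_natCard hx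
    rw [(z9_card (m := 10) h (by norm_num) R).1] at h1
    have h2 : x = (x ^ 2) ^ 365 := by
      rw [← pow_mul, show 2 * 365 = 729 + 1 by norm_num, pow_succ, orderOf_dvd_iff_pow_eq_one.1 h1,
        one_mul]
    rw [h2]
    exact pow_mem (sq_mem_of_index_two hi x) _
  have hn := z9_norm5 hM (R.subtype hle)
  have := (R.subtype hle).characteristic_of_normal hn
  have h3 := ConjAct.normal_of_characteristic_of_normal (H := M) (K := R.subtype hle)
  rwa [Sylow.coe_subtype, subgroupOf_map_subtype, inf_eq_left.2 hle] at h3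

theorem z9_three {α : Type*} (i : α → α) (hi : ∀ x, i (i x) = x) {x y z : α} (xy : x ≠ y)
    (xz : x ≠ z) (yz : y ≠ z) (hx : i x = x ∨ i x = y ∨ i x = z) (hy : i y = x ∨ i y = y ∨ i y = z)
    (hz : i z = x ∨ i z = y ∨ i z = z) : i x = x ∨ i y = y ∨ i z = z := by
  have h1 := hi x
  have h2 := hi y
  have h3 := hi z
  grind

theorem D9.z9_R (D : D9 G) [Fact (Nat.Prime 3)] (R : Sylow 3 G) :
    Nat.card (R : Subgroup G) = 729 ∧ (R : Subgroup G).index = 58400 :=
  z9_card (by rw [D.card]) (by norm_num) R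

theorem D9.z9_pow (D : D9 G) [Fact (Nat.Prime 3)] (R : Sylow 3 G) {y : G}
    (hy : y ∈ (R : Subgroup G)) : y ^ 3 ^ 6 = 1 := by
  have := (R : Subgroup G).orderOf_dvd_natCard hy
  rw [(D.z9_R R).1] at this
  exact orderOf_dvd_iff_pow_eq_one.1 this

omit [Finite G] in
theorem D9.z9_ne (D : D9 G) {y : G} (h : D.χ y = -9) : y ≠ 1 := fun e => by
  rw [e, D.χ1] at h
  norm_num at h

omit [Finite G] in
theorem z9_conj {R : Subgroup G} {f : G} (hf : f ∈ normalizer (R : Set G)) {s : G} (hs : s ∈ R) :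
    f * s * f⁻¹ ∈ R := (mem_normalizer_iff.1 hf s).1 hs

/-- the centraliser in `R` of an element of order five centralising `Δ` -/
theorem D9.z9_Y (D : D9 G) [Fact (Nat.Prime 3)] (R : Sylow 3 G) {f : G} (hf : orderOf f = 5)
    (h : ∀ d ∈ (R : Subgroup G), D.χ d = -9 → f * d = d * f) :
    Nat.card ↥((R : Subgroup G) ⊓ centralizer {f}) = 9 ∧
      ∀ r ∈ (R : Subgroup G), f * r = r * f → r = 1 ∨ D.χ r = -9 := by
  set Y := (R : Subgroup G) ⊓ centralizer {f} with hY
  have h1 : Nat.card Y ∣ 3 ^ 6 := by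
    have := card_dvd_of_le (inf_le_left : Y ≤ R)
    rwa [(D.z9_R R).1] at this
  have h2 : Nat.card Y ∣ cc f := card_dvd_of_le inf_le_right
  obtain ⟨k, -, hk⟩ := (Nat.dvd_prime_pow Nat.prime_three).1 h1
  have h3 : Nat.card Y ≤ 9 := by
    rw [hk] at h2 ⊢
    by_contra hc
    have : 3 ≤ k := by
      by_contra h4
      have : k = 0 ∨ k = 1 ∨ k = 2 := by omega
      rcases this with rfl | rfl | rfl <;> norm_num at hc
    exact D.five27 hf ((pow_dvd_pow 3 this).trans h2)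
  have h4 : insert 1 {y : G | y ∈ (R : Subgroup G) ∧ D.χ y = -9} ⊆ (Y : Set G) := by
    rintro y (rfl | hy)
    · exact one_mem Y
    · exact ⟨hy.1, mem_centralizer_singleton_iff.2 (h y hy.1 hy.2).symm⟩
  have h5 : (insert 1 {y : G | y ∈ (R : Subgroup G) ∧ D.χ y = -9}).ncard = 9 := by
    rw [Set.ncard_insert_of_notMem (fun e => D.z9_ne e.2 rfl), D.cnt R]
  have h6 : (Y : Set G).ncard = Nat.card Y := (Nat.card_coe_set_eq (Y : Set G)).symm
  have h7 := Set.eq_of_subset_of_ncard_le h4 (by omega)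
  refine ⟨by rw [← h6, ← h7, h5], fun r hr e => ?_⟩
  have : r ∈ (Y : Set G) := ⟨hr, mem_centralizer_singleton_iff.2 e.symm⟩
  rw [← h7] at this
  exact this.imp id (·.2)

theorem D9.z9_cen (D : D9 G) [Fact (Nat.Prime 3)] (R : Sylow 3 G) {d : G}
    (hd : d ∈ (R : Subgroup G)) (hc : d ∈ centralizer ((R : Subgroup G) : Set G)) (d1 : d ≠ 1) :
    D.χ d = -9 ∧ 5 ∣ cc d ∧ centralizer {d} ≤ normalizer ((R : Subgroup G) : Set G) := by
  have hle : (R : Subgroup G) ≤ centralizer {d} := fun x hx =>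
    mem_centralizer_singleton_iff.2 (mem_centralizer_iff.1 hc x hx)
  have h1 : 729 ∣ cc d := (D.z9_R R).1 ▸ card_dvd_of_le hle
  rcases D.thr d1 (D.z9_pow R hd) with h | h
  · exact absurd (h1.trans h.2) (by norm_num)
  refine ⟨h.1, by rcases h.2 with e | e <;> rw [e] <;> norm_num, ?_⟩
  exact (normal_subgroupOf_iff_le_normalizer hle).1 (syl3_normal h.2 (R.subtype hle))

/-- Let `Z = R ⊓ C(R)` be the centre of `R` (`|R| = 729`), `Δ` the 8 elements of `R` with `χ = -9`
(`D9.cnt`).  Every `1 ≠ d ∈ Z` has `729 ∣ cc d`, so `d ∈ Δ` (`D9.thr`), and `C(d) ≤ N(R)`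
(`syl3_normal`).  Fix such `d` (`Z ≠ 1`) and `f ∈ C(d)` of order 5.  `f` permutes `Δ` (normalises `R`,
`χ` is a class function), fixes `d` and `d⁻¹ ≠ d`, commutes with inversion (`Δ⁻¹ = Δ` by `D.χp` or
`D.χc`-free: `χ y⁻¹ = χ (y ^ (orderOf y - 1))`).  The non-fixed points of `f` in `Δ` are `0` or `5` in
number (`≡ 0 mod 5`, at most 6) and are permuted by inversion without fixed points, so their number is
even: `f` centralises `Δ`.  So `Δ ∪ {1} ⊆ Y = R ⊓ C(f)`, `|Y| ≥ 9`, `27 ∤ cc f` (`D9.five27`), so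
`Y = Δ ∪ {1}` has order 9.  For `d' ∈ Δ`: `A = R ⊓ C(d')` has index `≤ 8` in `R` (its `R`-class lies
in `Δ`), so `|A| ∈ {243, 729}`; `f` normalises `A` and fixes exactly `A ⊓ Y`, of order `1, 3` or `9`;
`|A| ≡ |A ⊓ Y| mod 5`; `Y` is abelian (order 9) so `Y ≤ A`, `|A| ≡ 9`, `243 ≢ 9`: `A = R`.  So `Z = Y`.
Last claim: an element `f'` of order 5 centralising `Z` has `Z ≤ R ⊓ C(f')` and `27 ∤ cc f'`. -/
theorem D9.cen (D : D9 G) [Fact (Nat.Prime 3)] (R : Sylow 3 G) :
    Nat.card ↥((R : Subgroup G) ⊓ centralizer ((R : Subgroup G) : Set G)) = 9 ∧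
    (∀ y ∈ (R : Subgroup G), D.χ y = -9 ↔ y ∈ centralizer ((R : Subgroup G) : Set G) ∧ y ≠ 1) ∧
    (∀ d ∈ (R : Subgroup G), D.χ d = -9 → centralizer {d} ≤ normalizer ((R : Subgroup G) : Set G)) ∧
    (∃ f : G, orderOf f = 5 ∧ ∀ d ∈ (R : Subgroup G), D.χ d = -9 → f * d = d * f) ∧
    ∀ f : G, orderOf f = 5 → (∀ d ∈ (R : Subgroup G), D.χ d = -9 → f * d = d * f) →
      D.χ f = -8 ∧ ∀ r ∈ (R : Subgroup G), f * r = r * f →
        r ∈ centralizer ((R : Subgroup G) : Set G) := by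
  have : Nontrivial (R : Subgroup G) := Finite.one_lt_card_iff_nontrivial.1 (by
    rw [(D.z9_R R).1]; norm_num)
  obtain ⟨⟨⟨d, hd⟩, dc⟩, d1⟩ := @exists_ne _ R.isPGroup'.center_nontrivial 1
  have dc' : d ∈ centralizer ((R : Subgroup G) : Set G) := mem_centralizer_iff.2 fun x hx =>
    congrArg Subtype.val (mem_center_iff.1 dc ⟨x, hx⟩)
  have d1' : d ≠ 1 := fun e => d1 (Subtype.ext (Subtype.ext e))
  obtain ⟨-, h5, hN⟩ := D.z9_cen R hd dc' d1'
  have : Fact (Nat.Prime 5) := ⟨Nat.prime_five⟩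
  obtain ⟨⟨f, fd⟩, hf⟩ := exists_prime_orderOf_dvd_card' 5 h5
  rw [← orderOf_coe] at hf
  change orderOf f = 5 at hf
  have fN := hN fd
  have hΔ : ∀ s ∈ (R : Subgroup G), D.χ s = -9 → f * s = s * f := by
    have h1 := z9_fix Nat.prime_five hf (S := {y : G | y ∈ (R : Subgroup G) ∧ D.χ y = -9})
      fun s hs => ⟨z9_conj fN hs.1, (D.χc f s).trans hs.2⟩
    set F := {s | s ∈ {y : G | y ∈ (R : Subgroup G) ∧ D.χ y = -9} ∧ f * s = s * f} with hF
    have h2 : F ⊆ {y : G | y ∈ (R : Subgroup G) ∧ D.χ y = -9} := fun s hs => hs.1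
    have h3 := Set.ncard_le_ncard h2
    have h4 : F.ncard ≠ 3 := fun e => by
      obtain ⟨x, y, z, xy, xz, yz, e⟩ := Set.ncard_eq_three.1 e
      have hi : ∀ s ∈ F, s⁻¹ ∈ F ∧ s⁻¹ ≠ s := fun s hs => by
        have h6 := D.z9_pow R hs.1.1
        have h7 : s⁻¹ = s ^ 728 := inv_eq_of_mul_eq_one_left (by rw [← pow_succ]; exact h6)
        refine ⟨⟨⟨inv_mem hs.1.1, ?_⟩, (Commute.inv_right hs.2).eq⟩, fun e => D.z9_ne hs.1.2 ?_⟩
        · rw [h7, D.χp s 728 (Nat.Coprime.coprime_dvd_right (orderOf_dvd_of_pow_eq_one h6)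
            (by norm_num))]
          exact hs.1.2
        · have h8 : s ^ 2 = 1 := by rw [pow_two]; nth_rw 1 [← e]; exact inv_mul_cancel s
          rw [← e, h7, show 728 = 2 * 364 by norm_num, pow_mul, h8, one_pow]
      have hx := hi x (by rw [e]; simp)
      have hy := hi y (by rw [e]; simp)
      have hz := hi z (by rw [e]; simp)
      rw [e] at hx hy hz
      rcases z9_three Inv.inv inv_inv xy xz yz hx.1 hy.1 hz.1 with e | e | e
      exacts [hx.2 e, hy.2 e, hz.2 e]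
    rw [D.cnt R] at h1 h3
    have h6 := Set.eq_of_subset_of_ncard_le h2 (by
      rw [D.cnt R]
      unfold Nat.ModEq at h1
      omega)
    intro s hs e
    have : s ∈ F := h6 ▸ ⟨hs, e⟩
    exact this.2
  obtain ⟨hY, hY'⟩ := D.z9_Y R hf hΔ
  have : Fact (Nat.Prime 3) := inferInstance
  have hab := (IsPGroup.isMulCommutative_of_card_eq_prime_sq (p := 3) hY).is_comm.comm
  have hZ : ∀ s ∈ (R : Subgroup G), D.χ s = -9 → s ∈ centralizer ((R : Subgroup G) : Set G) := by
    intro s hs e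
    refine mem_centralizer_iff.2 fun r hr => ?_
    have fs := hΔ s hs e
    have fr := hΔ _ (mul_mem (mul_mem hr hs) (inv_mem hr)) ((D.χc r s).trans e)
    set A := (R : Subgroup G) ⊓ centralizer {s} with hA
    have h1 := z9_fix Nat.prime_five hf (S := (fun a => r * a) '' (A : Set G)) (by
      rintro _ ⟨a, ⟨ha, as⟩, rfl⟩
      refine ⟨r⁻¹ * (f * (r * a) * f⁻¹), ⟨(R : Subgroup G).mul_mem ((R : Subgroup G).inv_mem hr)
        (z9_conj fN ((R : Subgroup G).mul_mem hr ha)),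
        mem_centralizer_singleton_iff.2 ?_⟩, by simp⟩
      have c1 : Commute (r⁻¹ * f * r) s := by
        calc r⁻¹ * f * r * s = r⁻¹ * (f * (r * s * r⁻¹)) * r := by group
          _ = s * (r⁻¹ * f * r) := by rw [fr]; group
      have c2 : Commute a s := mem_centralizer_singleton_iff.1 as
      have := ((c1.mul_left c2).mul_left (Commute.inv_left fs)).eq
      simpa only [mul_assoc] using this)
    rw [Set.ncard_image_of_injective _ (mul_right_injective r), ← Nat.card_coe_set_eq] at h1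
    have h2 : Nat.card A ∣ 729 := (D.z9_R R).1 ▸ card_dvd_of_le inf_le_left
    obtain ⟨x, ⟨a, ⟨ha, as⟩, rfl⟩, fx⟩ :
        {x | x ∈ (fun a => r * a) '' (A : Set G) ∧ f * x = x * f}.Nonempty := by
      refine Set.nonempty_of_ncard_ne_zero fun e => ?_
      rw [e] at h1
      exact absurd (((Nat.modEq_zero_iff_dvd).1 h1).trans h2) (by norm_num)
    have c1 : Commute (r * a) s := congrArg Subtype.val
      (hab ⟨r * a, mul_mem hr ha, mem_centralizer_singleton_iff.2 fx.symm⟩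
        ⟨s, hs, mem_centralizer_singleton_iff.2 fs.symm⟩)
    have c2 : Commute a s := mem_centralizer_singleton_iff.1 as
    simpa using (c1.mul_left c2.inv_left).eq
  have hZY : ∀ g : G, orderOf g = 5 → (∀ d ∈ (R : Subgroup G), D.χ d = -9 → g * d = d * g) →
      (R : Subgroup G) ⊓ centralizer ((R : Subgroup G) : Set G) =
        (R : Subgroup G) ⊓ centralizer {g} := fun g hg h => by
    apply le_antisymm
    · intro x hx
      replace hx := mem_inf.1 hx
      refine mem_inf.2 ⟨hx.1, mem_centralizer_singleton_iff.2 ?_⟩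
      by_cases x1 : x = 1
      · simp [x1]
      · exact (h x hx.1 (D.z9_cen R hx.1 hx.2 x1).1).symm
    · intro x hx
      replace hx := mem_inf.1 hx
      refine mem_inf.2 ⟨hx.1, ?_⟩
      rcases (D.z9_Y R hg h).2 x hx.1 (mem_centralizer_singleton_iff.1 hx.2).symm with e | e
      · exact e ▸ one_mem _
      · exact hZ x hx.1 e
  refine ⟨by rw [hZY f hf hΔ, hY], fun y hy => ⟨fun e => ⟨hZ y hy e, D.z9_ne e⟩,
    fun e => (D.z9_cen R hy e.1 e.2).1⟩, fun s hs e => (D.z9_cen R hs (hZ s hs e) (D.z9_ne e)).2.2,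
    ⟨f, hf, hΔ⟩, fun g hg h => ⟨(D.five hg ?_).1, fun r hr e => ?_⟩⟩
  · exact (D.z9_Y R hg h).1 ▸ card_dvd_of_le inf_le_right
  · have : r ∈ (R : Subgroup G) ⊓ centralizer {g} := ⟨hr, mem_centralizer_singleton_iff.2 e.symm⟩
    rw [← hZY g hg h] at this
    exact this.2

/-- `n₃ = 730`.  For `R' ≠ R` and `1 ≠ r ∈ R ⊓ R'`: if `χ r = -9` then `r` centralises `R'`, so
`R' ≤ C(r) ≤ N(R)` and `R' = R`.  So `χ = 0` on `(R ⊓ R')#`, `|R ⊓ R'| ∣ 72` (`Dat.χ_const`), the index
of `R ⊓ R'` in `R` is `≥ 81`, and `S0985` (`k = 4`) gives `n₃ ≡ 1 mod 81`.  `n₃ ∣ 58400`, whose only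
such divisors are `1` and `730`.  `n₃ ≠ 1`: else an element `x` of order 73 normalises `R`, permutes
the 8 elements with `χ = -9`, so centralises one, `d`: `73 ∣ cc d`, against `D.cp`. -/
theorem D9.nsyl (D : D9 G) [Fact (Nat.Prime 3)] : Nat.card (Sylow 3 G) = 730 := by
  obtain ⟨R⟩ : Nonempty (Sylow 3 G) := inferInstance
  have h1 := R.card_dvd_index
  rw [(D.z9_R R).2] at h1
  have h2 : Nat.card (Sylow 3 G) ≡ 1 [MOD 3 ^ 4] := by
    by_contra hc
    obtain ⟨P, Q, hne, hi⟩ := S0985.result 3 4 hc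
    obtain ⟨n, hn⟩ := D.χ_const ((Q : Subgroup G) ⊓ P) (w := 0) fun r hr r1 => by
      refine (D.thr r1 (D.z9_pow P hr.2)).elim (·.1) fun e => (hne ?_).elim
      have h3 : (Q : Subgroup G) ≤ normalizer ((P : Subgroup G) : Set G) :=
        le_trans (fun x hx => mem_centralizer_singleton_iff.2
          (mem_centralizer_iff.1 (((D.cen Q).2.1 r hr.1).1 e.1).1 x hx)) ((D.cen P).2.2.1 r hr.2 e.1)
      have h4 := Q.isPGroup'.inf_normalizer_sylow P
      exact Sylow.ext (Q.is_maximal' P.isPGroup'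
        (((inf_eq_left.2 h3).symm.trans h4).le.trans inf_le_right))
    have h5 : Nat.card ↥((Q : Subgroup G) ⊓ P) ∣ 72 := ⟨n, by
      rw [mul_zero, add_zero] at hn
      exact_mod_cast hn⟩
    have h6 : Nat.card ↥((Q : Subgroup G) ⊓ P) ∣ 729 := (D.z9_R P).1 ▸ card_dvd_of_le inf_le_right
    have h7 := Nat.le_of_dvd (by norm_num) (Nat.dvd_gcd h5 h6)
    have h8 := ((Q : Subgroup G).subgroupOf P).card_mul_index
    rw [(D.z9_R P).1, ← inf_subgroupOf_right,
      Nat.card_congr (subgroupOfEquivOfLe inf_le_right).toEquiv, inf_subgroupOf_right] at h8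
    have h9 := Nat.mul_le_mul h7 hi
    rw [h8] at h9
    norm_num at h9
  have h3 : ∀ k < 722, 81 * k + 1 ∣ 58400 → k = 0 ∨ k = 9 := by decide +kernel
  have h4 := Nat.le_of_dvd (by norm_num) h1
  unfold Nat.ModEq at h2
  norm_num at h2
  have h5 : Nat.card (Sylow 3 G) = 81 * (Nat.card (Sylow 3 G) / 81) + 1 := by omega
  rcases h3 _ (by omega) (h5 ▸ h1) with e | e
  swap
  · omega
  exfalso
  have := (Nat.card_eq_one_iff_unique.1 (by omega : Nat.card (Sylow 3 G) = 1)).1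
  have hn := R.normal_of_subsingleton
  have hp : Nat.Prime 73 := by norm_num
  have : Fact (Nat.Prime 73) := ⟨hp⟩
  obtain ⟨x, hx⟩ := exists_prime_orderOf_dvd_card' (G := G) 73 (by rw [D.card]; norm_num)
  have h6 := z9_fix hp hx (S := {y : G | y ∈ (R : Subgroup G) ∧ D.χ y = -9})
    fun s hs => ⟨hn.conj_mem s hs.1 x, (D.χc x s).trans hs.2⟩
  rw [D.cnt R] at h6
  obtain ⟨d, ⟨hd, e⟩, xd⟩ :
      {s | s ∈ {y : G | y ∈ (R : Subgroup G) ∧ D.χ y = -9} ∧ x * s = s * x}.Nonempty := by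
    refine Set.nonempty_of_ncard_ne_zero fun e => ?_
    rw [e] at h6
    exact absurd h6 (by decide)
  have h7 := D.cp d (D.z9_ne e)
    (hx ▸ (centralizer {d}).orderOf_dvd_natCard (mem_centralizer_singleton_iff.2 xd))
  exact absurd (h7 ▸ orderOf_dvd_of_pow_eq_one (D.z9_pow R hd)) (by norm_num)

end Cfsg.Agent.Tri
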