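import Cfsg.Agent.Tri.Base
import Cfsg.Agent.Tri.Z9
import Cfsg.Agent.S0058
import Cfsg.Agent.Inv.KleinSylow
import Cfsg.Agent.PLocal.AmbSyl
import Cfsg.Agent.Block.FixCount
import Cfsg.Agent.Grp.Card

/-! S3645, order of U3(9): the 2-rank is at most 2. -/

set_option autoImplicit false

namespace Cfsg.Agent.Tri

open Subgroup Cfsg.Agent.PLocal.Amb

variable {G : Type*} [Group G] [Finite G]

/-- No involution `s` inverts an element `a` of order 10 with `χ (a²) = -8`: on the dihedral group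
`H = ⟨a, s⟩` of order 20 the sum of `χ` is `≥ 0` (`D.χs`), but the ten elements `s aⁱ` and `a⁵` are
involutions (`χ = -8`, `D9.inv`), `a², a⁴, a⁶, a⁸` have `χ = -8` (`D.χp`), `a, a³, a⁷, a⁹` have `χ ≤ 8`
(`D9.bnd`): the sum is at most `72 - 88 - 32 + 32 < 0`. -/
theorem D9.no20 (D : D9 G) {a s : G} (ha : orderOf a = 10) (hs : orderOf s = 2)
    (h : s * a * s⁻¹ = a⁻¹) (h2 : D.χ (a ^ 2) = -8) : False := by
  classical
  have ss := Inv.mul_self_of_orderOf_two hs
  have si := Inv.inv_of_orderOf_two hs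
  have hN : ∀ x ∈ zpowers a, s * x * s⁻¹ = x⁻¹ := by
    rintro _ ⟨i, rfl⟩
    rw [← conj_zpow, h, inv_zpow]
  have hN' : ∀ x ∈ zpowers a, s * x * s ∈ zpowers a := fun x hx => by
    have := inv_mem hx
    rwa [← hN x hx, si] at this
  have c1 : ∀ x, s * (s * x) = x := fun x => by rw [← mul_assoc, ss, one_mul]
  have sa : s ∉ zpowers a := by
    rintro ⟨i, rfl⟩
    beta_reduce at h
    rw [((Commute.refl a).zpow_left i).eq, mul_inv_cancel_right, eq_inv_iff_mul_eq_one, ← sq] at h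
    have := orderOf_dvd_of_pow_eq_one h
    rw [ha] at this
    omega
  let H : Subgroup G :=
    { carrier := {g | g ∈ zpowers a ∨ s * g ∈ zpowers a}
      one_mem' := .inl (one_mem _)
      mul_mem' := by
        rintro x y (hx | hx) (hy | hy)
        · exact .inl (mul_mem hx hy)
        · exact .inr (by simpa only [mul_assoc, c1] using mul_mem (hN' _ hx) hy)
        · exact .inr (by simpa only [mul_assoc] using mul_mem hx hy)
        · exact .inl (by simpa only [mul_assoc, c1] using mul_mem (hN' _ hx) hy)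
      inv_mem' := by
        rintro x (hx | hx)
        · exact .inl (inv_mem hx)
        · exact .inr (by simpa only [mul_inv_rev, si, mul_assoc, ss, mul_one] using hN' _ (inv_mem hx)) }
  have inj : Set.InjOn (a ^ ·) (Finset.range 10 : Set ℕ) := by
    rw [Finset.coe_range, ← ha]; exact pow_injOn_Iio_orderOf
  have mem : ∀ g, g ∈ (Finset.range 10).image (a ^ ·) ↔ g ∈ zpowers a := fun g => by
    rw [← ha, mem_zpowers_iff_mem_range_orderOf]
  obtain ⟨n, hn⟩ := D.χs H ((Finset.range 10).image (a ^ ·) ∪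
      ((Finset.range 10).image (a ^ ·)).image (s * ·)) fun g => by
    rw [Finset.mem_union, mem, Finset.mem_image]
    refine or_congr_right ⟨?_, fun hg => ⟨_, (mem _).2 hg, c1 g⟩⟩
    rintro ⟨x, hx, rfl⟩
    rw [c1]
    exact (mem _).1 hx
  rw [Finset.sum_union (Finset.disjoint_left.2 fun g h1 h2 => by
      obtain ⟨x, hx, rfl⟩ := Finset.mem_image.1 h2
      exact sa ((mul_mem_cancel_right ((mem _).1 hx)).1 ((mem _).1 h1))),
    Finset.sum_image (g := (s * ·)) fun _ _ _ _ e => mul_left_cancel e, Finset.sum_image inj,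
    Finset.sum_image inj, Finset.sum_congr rfl (g := fun _ => -8) (f := fun i => D.χ (s * a ^ i))
      fun i _ => (D.inv (Inv.orderOf_two_of_mul_self (by
        have := hN _ (npow_mem_zpowers a i)
        rw [si] at this
        rw [← mul_assoc, this, inv_mul_cancel]) fun e => sa (by
        rw [eq_inv_of_mul_eq_one_left e]
        exact inv_mem (npow_mem_zpowers a i)))).1] at hn
  have o2 : orderOf (a ^ 2) = 5 := by rw [orderOf_pow, ha]; rfl
  have e1 := (D.bnd (g := a) (.inl (by rw [ha]; norm_num))).2.2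
  have e3 := D.χp a 3 (by rw [ha]; norm_num)
  have e7 := D.χp a 7 (by rw [ha]; norm_num)
  have e9 := D.χp a 9 (by rw [ha]; norm_num)
  have e4 := D.χp (a ^ 2) 2 (by rw [o2]; norm_num)
  have e6 := D.χp (a ^ 2) 3 (by rw [o2]; norm_num)
  have e8 := D.χp (a ^ 2) 4 (by rw [o2]; norm_num)
  have e5 := (D.inv (t := a ^ 5) (by rw [orderOf_pow, ha]; rfl)).1
  have e0 := D.χ1
  have e := Int.natCast_nonneg (Nat.card H * n)
  rw [← pow_mul] at e4 e6 e8
  simp only [Finset.sum_range_succ, Finset.sum_range_zero, pow_zero, pow_one] at hn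
  push_cast at e e0 e4 e6 e8
  omega

omit [Finite G] in
theorem R9.pm {w f : G} (hw : w * w = 1) (hf : orderOf f = 5) (h : w * f * w⁻¹ ∈ zpowers f) :
    w * f * w⁻¹ = f ∨ w * f * w⁻¹ = f⁻¹ := by
  classical
  rw [(isOfFinOrder_iff_pow_eq_one.2 ⟨5, by norm_num, hf ▸ pow_orderOf_eq_one f⟩
    ).mem_zpowers_iff_mem_range_orderOf, hf] at h
  obtain ⟨k, hk, e⟩ := Finset.mem_image.1 h
  have h1 : f ^ (k * k) = f ^ 1 :=
    calc _ = w * f ^ k * w⁻¹ := by rw [pow_mul, ← conj_pow, ← e]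
      _ = (w * w) * f * (w * w)⁻¹ := by rw [e]; group
      _ = _ := by rw [hw]; group
  rw [pow_eq_pow_iff_modEq, hf] at h1
  rw [Finset.mem_range] at hk
  rw [← e]
  interval_cases k
  · exact absurd h1 (by decide)
  · exact .inl (pow_one f)
  · exact absurd h1 (by decide)
  · exact absurd h1 (by decide)
  · exact .inr (eq_inv_of_mul_eq_one_left (by
      have := pow_orderOf_eq_one f
      rwa [hf, pow_succ] at this))

/-- `N(R)` contains no four-group `U = {1, u₁, u₂, u₁u₂}`.  Let `Z` be the centre of `R`, `f₀` the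
element of order 5 of `D9.cen`, `C = C(Z)`; `C ≤ C(d) ≤ N(R)` has order dividing 7290, and
`K = R ⊔ zpowers f₀ ≤ C` has order 3645 (index `≤ 2` in `C`, so it contains every element of order 5
of `C`); `U` normalises `R`, `Z`, `C`, hence `K`.  The number of Sylow 5-subgroups of `K` is odd, so
the 2-group `U` fixes one, `F = zpowers f`; each `u ∈ U` centralises or inverts `f`, `χ f = -8`.
If all of `U` centralises `f`: for `1 ≠ u ∈ U`, `Y = R ⊓ C(u)` has order `1, 3, 9` (`D9.inv`,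
`D9.not27`), is normalised by `f`, and `|Y| ≡ |C_Y(f)| mod 5` forces `Y ≤ C(f)`, so `Y ≤ Z`; `S0058`
gives `R ≤ Z`, but `|Z| = 9`.  Otherwise some `s ∈ U` inverts `f` and some `1 ≠ u ∈ U` centralises `f`
(a product of two inverting elements): `a = u f` has order 10, `s` inverts `a`, `a² = f²`:
`D9.no20`. -/
theorem D9.noV (D : D9 G) [Fact (Nat.Prime 3)] (R : Sylow 3 G) {u v : G} (hu : orderOf u = 2)
    (hv : orderOf v = 2) (huv : u ≠ v) (hc : u * v = v * u)
    (h1 : u ∈ normalizer ((R : Subgroup G) : Set G))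
    (h2 : v ∈ normalizer ((R : Subgroup G) : Set G)) : False := by
  have : Fact (Nat.Prime 5) := ⟨Nat.prime_five⟩
  obtain ⟨z9, hΔ, hN, ⟨f₀, hf₀, hf₀c⟩, hlast⟩ := D.cen R
  have r1 : 3 ^ 6 ∣ Nat.card R := R.pow_dvd_card_of_pow_dvd_card (by rw [D.card]; norm_num)
  have pR := R.isPGroup'
  generalize (R : Subgroup G) = R at *
  obtain ⟨kR, hkR⟩ := pR.exists_card_eq
  set Z := R ⊓ 𝐂[R] with hZ
  have hU := Inv.Klein.of_commute hu hv huv hc
  have uU : u ∈ closure {u, v} := subset_closure (by simp)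
  have vU : v ∈ closure {u, v} := subset_closure (by simp)
  have UR : closure {u, v} ≤ 𝐍[R] := (closure_le _).2 (by rintro _ (rfl | rfl); exacts [h1, h2])
  generalize closure {u, v} = U at hU uU vU UR
  have : IsMulCommutative U := ⟨⟨fun a b => Subtype.ext (Inv.Klein.comm hU a.2 b.2)⟩⟩
  have UC : U ≤ 𝐍[𝐂[Z]] :=
    le_normalizer_centralizer (le_normalizer_inf UR (le_normalizer_centralizer UR))
  have fC : f₀ ∈ 𝐂[Z] := fun z hz => by
    by_cases e : z = 1
    · rw [e, one_mul, mul_one]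
    · exact (hf₀c z hz.1 ((hΔ z hz.1).2 ⟨hz.2, e⟩)).symm
  have RC : R ≤ 𝐂[Z] := fun r hr z hz => (hz.2 r hr).symm
  obtain ⟨⟨d, hd⟩, d1⟩ := ne_bot_iff_exists_ne_one.1 (show Z ≠ ⊥ from fun e => by
    rw [e, card_bot] at z9; omega)
  have d9 := (hΔ d hd.1).2 ⟨hd.2, fun e => d1 (Subtype.ext e)⟩
  have Cd : 𝐂[Z] ≤ centralizer {d} := fun x hx => mem_centralizer_singleton_iff.2 (hx d hd).symm
  have CN := Cd.trans (hN d hd.1 d9)
  have c1 : Nat.card 𝐂[Z] ∣ 7290 := by
    obtain ⟨k, hk⟩ := isPGroup_iff.1 pR d hd.1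
    refine (card_dvd_of_le Cd).trans ?_
    rcases D.thr (fun e => d1 (Subtype.ext e)) hk with h | ⟨-, h | h⟩
    · exact absurd (h.1.symm.trans d9) (by norm_num)
    · exact (show cc d ∣ 7290 by rw [h]; norm_num)
    · exact (show cc d ∣ 7290 by rw [h])
  have KC : zpowers f₀ ⊔ R ≤ 𝐂[Z] := sup_le (zpowers_le.2 fC) RC
  have c2 := Grp.card_sup_mul_card_inf_of_le_normalizer (zpowers_le.2 (CN fC))
  have c3 : 5 ∣ Nat.card ↥(zpowers f₀ ⊔ R) := hf₀ ▸ orderOf_dvd_natCard _ (mem_sup_left (mem_zpowers _))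
  have c4 := Grp.card_inf_mul_relIndex' (zpowers f₀ ⊔ R) 𝐂[Z]
  rw [inf_eq_left.2 KC] at c4
  have c5 : (zpowers f₀ ⊔ R).relIndex 𝐂[Z] ∣ 2 := Nat.dvd_of_mul_dvd_mul_left (k := 5 * 3 ^ 6)
    (by norm_num) ((mul_dvd_mul_right (Nat.Coprime.mul_dvd_of_dvd_of_dvd (by norm_num) c3
      (r1.trans (card_dvd_of_le le_sup_right))) _).trans (c4 ▸ c1))
  have c6 : ∀ x ∈ 𝐂[Z], orderOf x = 5 → x ∈ zpowers f₀ ⊔ R := fun x hx h5 => by
    rcases (Nat.dvd_prime Nat.prime_two).1 c5 with e | e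
    · exact relIndex_eq_one.1 e hx
    · exact mem_of_pow_mem_of_coprime (n := 2) (sq_mem_of_index_two e ⟨x, hx⟩) (by rw [h5]; norm_num)
  have UK : U ≤ 𝐍[zpowers f₀ ⊔ R] := le_normalizer_iff_cj.2 fun w hw => by
    rw [cj_sup, cj_of_mem_normalizer (UR hw)]
    refine sup_le (cj_le_iff.2 (zpowers_le.2 (mem_cj.2 ?_))) le_sup_right
    rw [inv_inv]
    exact c6 _ (conj_mem_of_mem_normalizer (UC hw) fC) (by rw [orderOf_conj', hf₀])
  obtain ⟨P, hP⟩ := Solv.exists_invariant_sylow U _ UK (by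
    rw [hU.card_four]
    refine Nat.Coprime.coprime_dvd_right (Dvd.intro _ c2) ?_
    rw [Nat.card_zpowers, hf₀, hkR]
    exact Nat.Coprime.mul_right (by norm_num) (Nat.Coprime.pow_right _ (by norm_num)))
    (.inl (Solv.isSolvable_of_isMulCommutative U)) 5
  have p1 : Nat.card ((P : Subgroup ↥(zpowers f₀ ⊔ R)).map (zpowers f₀ ⊔ R).subtype) = 5 := by
    obtain ⟨k, hk⟩ := P.isPGroup'.exists_card_eq
    have e1 := P.dvd_card_of_dvd_card c3
    have e2 := (card_subgroup_dvd_card (P : Subgroup ↥(zpowers f₀ ⊔ R))).trans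
      ((card_dvd_of_le KC).trans c1)
    rw [card_subtype, hk] at *
    match k with
    | 0 => omega
    | 1 => rfl
    | k + 2 => exact absurd ((pow_dvd_pow 5 (by omega : 2 ≤ k + 2)).trans e2) (by norm_num)
  have FC := (map_subtype_le (P : Subgroup ↥(zpowers f₀ ⊔ R))).trans KC
  generalize (P : Subgroup ↥(zpowers f₀ ⊔ R)).map (zpowers f₀ ⊔ R).subtype = F at hP p1 FC
  obtain ⟨⟨f, hfF⟩, hf⟩ := exists_prime_orderOf_dvd_card' (G := F) 5 p1.symm.dvd
  rw [orderOf_mk] at hf
  obtain rfl : zpowers f = F :=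
    eq_of_le_of_card_ge (zpowers_le.2 hfF) (by rw [p1, Nat.card_zpowers, hf])
  obtain ⟨f8, hfix⟩ := hlast f hf fun d hd h => (FC hfF d ⟨hd, ((hΔ d hd).1 h).1⟩).symm
  have pm : ∀ w ∈ U, w * f * w⁻¹ = f ∨ w * f * w⁻¹ = f⁻¹ := fun w hw =>
    R9.pm (Inv.Klein.mul_self hU hw) hf (conj_mem_of_mem_normalizer (hP hw) hfF)
  by_cases hall : ∀ w ∈ U, w * f * w⁻¹ = f
  · have h3 : R ≤ Z := Solv.le_of_centralizers_le U R hU.not_isCyclic UR (by
      rw [hU.card_four, hkR]
      exact Nat.Coprime.pow_right _ (by norm_num)) Z fun w hw w1 => by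
      have e1 := D.not27 (D.inv (Inv.Klein.orderOf_eq hU hw w1)).2
      have e2 : Commute f w := (mul_inv_eq_iff_eq_mul.1 (hall w hw)).symm
      have e3 : Nat.card ↥(R ⊓ centralizer {w}) ≡
          Nat.card ↥(R ⊓ centralizer {w} ⊓ 𝐂[zpowers f]) [MOD 5] :=
        Block.card_modEq_card_centralizer (IsPGroup.of_card (n := 1) p1) (· ∈ R ⊓ centralizer {w})
          fun g hg x hx => ⟨conj_mem_of_mem_normalizer (CN (FC hg)) hx.1,
            have := zpowers_le.2 (mem_centralizer_singleton_iff.2 e2) hg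
            (centralizer {w}).mul_mem ((centralizer {w}).mul_mem this hx.2)
              ((centralizer {w}).inv_mem this)⟩
      obtain ⟨j, hj⟩ := (pR.to_le (inf_le_left : R ⊓ centralizer {w} ≤ R)).exists_card_eq
      obtain ⟨i, hi, e4⟩ := (Nat.dvd_prime_pow Nat.prime_three).1 (hj ▸ card_dvd_of_le
        (inf_le_left : R ⊓ centralizer {w} ⊓ 𝐂[zpowers f] ≤ _))
      have e5 : j ≤ 2 := by
        by_contra e
        exact e1 ((pow_dvd_pow 3 (by omega : 3 ≤ j)).trans (hj ▸ card_dvd_of_le inf_le_right))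
      have e6 : i = j := by
        rw [hj, e4] at e3
        interval_cases j <;> interval_cases i <;> first | rfl | exact absurd e3 (by decide)
      have e7 := eq_of_le_of_card_ge (inf_le_left : R ⊓ centralizer {w} ⊓ 𝐂[zpowers f] ≤ _)
        (by rw [hj, e4, e6])
      exact fun y hy => ⟨hy.1, hfix y hy.1 ((e7.ge hy).2 f hfF)⟩
    have := Nat.le_of_dvd Nat.card_pos r1
    have := card_le_of_le h3
    omega
  push Not at hall
  obtain ⟨s, hs, hsf⟩ := hall
  have s2 := Inv.Klein.orderOf_eq hU hs (by rintro rfl; simp at hsf)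
  obtain ⟨w, hw, w1, hwf⟩ : ∃ w ∈ U, w ≠ 1 ∧ w * f * w⁻¹ = f := by
    rcases pm u uU with e | e
    · exact ⟨u, uU, Inv.ne_one_of_orderOf_two hu, e⟩
    rcases pm v vU with e' | e'
    · exact ⟨v, vU, Inv.ne_one_of_orderOf_two hv, e'⟩
    refine ⟨u * v, mul_mem uU vU, Inv.Klein.mul_ne_one hU vU huv, ?_⟩
    calc _ = u * (v * f * v⁻¹) * u⁻¹ := by group
      _ = (u * f * u⁻¹)⁻¹ := by rw [e']; group
      _ = f := by rw [e, inv_inv]
  have w2 := Inv.Klein.orderOf_eq hU hw w1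
  have cw : Commute w f := mul_inv_eq_iff_eq_mul.1 hwf
  refine D.no20 (a := w * f) (by
    rw [cw.orderOf_mul_eq_mul_orderOf_of_coprime (by rw [w2, hf]; norm_num), w2, hf]) s2 ?_ ?_
  · rw [← conj_mul, (pm s hs).resolve_left hsf, Inv.Klein.comm hU hs hw, mul_inv_cancel_right,
      cw.eq, mul_inv_rev, Inv.inv_of_orderOf_two w2]
  · rw [cw.mul_pow, Inv.sq_of_orderOf_two w2, one_mul, D.χp f 2 (by rw [hf]; norm_num), f8]

/-- An elementary abelian 2-subgroup `A` of order `≥ 8` acts on the `730 ≡ 2 mod 4` Sylow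
3-subgroups (`D9.nsyl`) with orbits of 2-power length, so some orbit has length `≤ 2` and the
stabiliser (order `≥ 4`) contains two distinct involutions: `D9.noV`. -/
theorem D9.rank (D : D9 G) : Cfsg.PRankLE 2 2 G := by
  classical
  have : Fact (Nat.Prime 3) := ⟨Nat.prime_three⟩
  intro A hA h2
  by_contra h4
  have pA : IsPGroup 2 A := fun a => ⟨1, Subtype.ext (by simpa using h2 a a.2)⟩
  obtain ⟨k, hk⟩ := pA.exists_card_eq
  have h8 : 2 ^ 3 ∣ Nat.card A := hk ▸ pow_dvd_pow 2 (by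
    by_contra h
    exact h4 (hk ▸ Nat.pow_le_pow_right two_pos (by omega)))
  have h1 : ∀ R : Sylow 3 G, 4 ∣ Nat.card (MulAction.orbit A R) := fun R => by
    have e1 := (MulAction.stabilizer A R).card_mul_index
    have e2 : Nat.card (MulAction.stabilizer A R) ≤ 2 := by
      by_contra e
      have := Fintype.ofFinite (MulAction.stabilizer A R)
      rw [not_le, Nat.card_eq_fintype_card, Fintype.two_lt_card_iff] at e
      obtain ⟨a, b, c, hab, hac, hbc⟩ := e
      have o : ∀ x : MulAction.stabilizer A R, x ≠ 1 → orderOf (x.1.1 : G) = 2 := fun x hx =>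
        orderOf_eq_prime (h2 _ x.1.2) fun e => hx (Subtype.ext (Subtype.ext e))
      exact D.noV R (o (a⁻¹ * b) (mt inv_mul_eq_one.1 hab)) (o (a⁻¹ * c) (mt inv_mul_eq_one.1 hac))
        (fun e => hbc (mul_left_cancel (Subtype.ext (Subtype.ext e))))
        (congrArg Subtype.val (hA.is_comm.comm (a⁻¹ * b).1 (a⁻¹ * c).1))
        (Sylow.smul_eq_iff_mem_normalizer.1 (a⁻¹ * b).2) (Sylow.smul_eq_iff_mem_normalizer.1 (a⁻¹ * c).2)
    have e3 : 0 < Nat.card (MulAction.stabilizer A R) := Nat.card_pos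
    rw [Nat.card_coe_set_eq, ← MulAction.index_stabilizer]
    rw [← e1] at h8
    interval_cases Nat.card (MulAction.stabilizer A R) <;> omega
  have := Fintype.ofFinite (Quotient (MulAction.orbitRel A (Sylow 3 G)))
  have h3 := D.nsyl
  rw [Nat.card_congr (MulAction.selfEquivSigmaOrbits A (Sylow 3 G)), Nat.card_sigma] at h3
  have := Finset.dvd_sum (s := Finset.univ) fun (ω : Quotient (MulAction.orbitRel A (Sylow 3 G))) _ =>
    h1 ω.out
  exact absurd (h3 ▸ this : 4 ∣ 730) (by norm_num)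

end Cfsg.Agent.Tri
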