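import Cfsg.Agent.Small.Sieve
import Cfsg.Agent.Small.DegMod

/-! S3645: the kernel computations for the sieve on divisors of `|U₃(8)|`. -/

set_option autoImplicit false

namespace Cfsg.Agent.Tri.Sv8

open Cfsg.Agent.Small Cfsg.Agent.Small.Sieve

def nn (a b c : ℕ) : ℕ := 2 ^ a * 3 ^ b * 7 ^ c * 19

def bb (a b : ℕ) : ℕ :=
  2 ^ (a / 2) * 3 ^ (b / 2) * (12 + 5 * (a % 2) + 8 * (b % 2) + 4 * (a % 2) * (b % 2))

def A1 (r s : ℕ) : ℕ → ℕ → ℕ → Bool :=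
  fun q b d => A0 q b d && (!(q == 7) || (!(d % 7 == r) && !(d % 7 == s)))

def kp (a b c k e f : ℕ) : Bool :=
  a == 9 && b == 4 && c == 1 && (e == 3 && f == 1 || k == 1008 && e == 18 && f == 16)

def c19 (a b c : ℕ) (A : ℕ → ℕ → ℕ → Bool) : Bool :=
  primeKill (bb a b) (nn a b c) 19 A [(2, a), (3, b), (7, 1)] (kp a b c)

def c7 (a b : ℕ) : Bool :=
  primeKill (bb a b) (nn a b 1) 7 A0 [(2, a), (3, b), (19, 1)] fun _ e _ => !(e == 2)

theorem k1 : ∀ a < 10, ∀ b < 5, ∀ c < 2, (c == 1 && (Nat.ble 5 a && Nat.ble 3 b || a == 4 && b == 4)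
    || c19 a b c A0) = true := by
  decide +kernel

theorem k2 : ∀ a < 10, ∀ b < 5, 5 ≤ a → 3 ≤ b → c19 a b 1 (A1 2 5) = true := by
  decide +kernel

theorem k3 : ∀ a < 10, ∀ b < 5, 5 ≤ a → 3 ≤ b → (c7 a b || c19 a b 1 (A1 3 4)) = true := by
  decide +kernel

end Cfsg.Agent.Tri.Sv8
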